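import Mathlib
set_option autoImplicit false
universe u
namespace H31.BB4P4

variable {B : Type u} [Group B] [Finite B]

/-- an automorphism of order at most 2 of a cyclic group of odd prime power order is `±1` -/
theorem pm {P : Subgroup B} {p : ℕ} (hp : p.Prime) (hp2 : p ≠ 2) (hP : IsPGroup p P) {y : B} (hy : ∀ x ∈ P, ∃ n : ℤ, y ^ n = x)
    (hyP : y ∈ P) {q : B} (hq : q * q = 1) (hqP : q * y * q⁻¹ ∈ P) : q * y * q⁻¹ = y ∨ q * y * q⁻¹ = y⁻¹ := by
  haveI := Fact.mk hp
  obtain ⟨n, hn⟩ := hy _ hqP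
  obtain ⟨k, hk⟩ := (IsPGroup.iff_orderOf.1 hP) ⟨y, hyP⟩
  rw [Subgroup.orderOf_mk] at hk
  have h1 : q * (q * y * q⁻¹) * q⁻¹ = y := by
    calc q * (q * y * q⁻¹) * q⁻¹ = (q * q) * y * (q * q)⁻¹ := by group
      _ = y := by rw [hq]; group
  have h2 : q * (y ^ n) * q⁻¹ = (q * y * q⁻¹) ^ n := (conj_zpow).symm
  rw [← hn] at h1
  rw [h2, ← hn, ← zpow_mul] at h1
  have h3 : y ^ (n * n - 1) = 1 := by rw [zpow_sub_one, h1, mul_inv_cancel]
  have h4 : ((p ^ k : ℕ) : ℤ) ∣ n * n - 1 := by rw [← hk]; exact orderOf_dvd_iff_zpow_eq_one.2 h3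
  have h5 : n * n - 1 = (n - 1) * (n + 1) := by ring
  rw [h5] at h4
  push_cast at h4
  have hpp : Prime (p : ℤ) := Nat.prime_iff_prime_int.1 hp
  rcases em ((p : ℤ) ∣ n - 1) with hd | hd
  · have hd2 : ¬ (p : ℤ) ∣ n + 1 := by
      intro hd2
      have h6 : (p : ℤ) ∣ 2 := by
        have := dvd_sub hd2 hd
        have h7 : n + 1 - (n - 1) = 2 := by ring
        rwa [h7] at this
      have h8 : p ∣ 2 := by exact_mod_cast h6
      exact hp2 ((Nat.prime_dvd_prime_iff_eq hp Nat.prime_two).1 h8)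
    have h6 : (p : ℤ) ^ k ∣ n - 1 := (IsCoprime.pow_left ((Prime.coprime_iff_not_dvd hpp).2 hd2)).dvd_of_dvd_mul_right h4
    left
    have h7 : y ^ (n - 1) = 1 := by
      apply orderOf_dvd_iff_zpow_eq_one.1
      rw [hk]; exact_mod_cast h6
    rw [← hn]
    rw [zpow_sub_one] at h7
    exact mul_inv_eq_one.1 h7
  · have h6 : (p : ℤ) ^ k ∣ n + 1 := (IsCoprime.pow_left ((Prime.coprime_iff_not_dvd hpp).2 hd)).dvd_of_dvd_mul_left h4
    right
    have h7 : y ^ (n + 1) = 1 := by
      apply orderOf_dvd_iff_zpow_eq_one.1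
      rw [hk]; exact_mod_cast h6
    rw [← hn]
    rw [zpow_add_one] at h7
    exact eq_inv_of_mul_eq_one_left h7

theorem cent (X V : Subgroup B) (hXn : X.Normal) (hX : Odd (Nat.card X)) (hV : Nat.card V = 4) (hV2 : ∀ g ∈ V, g * g = 1)
    (hVi : Odd V.index) (hconj : ∀ s s' : B, s ≠ 1 → s * s = 1 → s' ≠ 1 → s' * s' = 1 → ∃ g : B, g * s * g⁻¹ = s')
    (hcyc : ∀ (p : ℕ) (P : Subgroup B), p.Prime → P ≤ X → IsPGroup p P → IsCyclic P) :
    ∀ s : B, s ≠ 1 → s * s = 1 → ∀ x ∈ X, s * x = x * s := by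
  classical
  intro s hs1 hs2
  haveI : Fact (Nat.Prime 2) := ⟨Nat.prime_two⟩
  have key : Nat.card X ∣ Nat.card (X ⊓ Subgroup.centralizer {s} : Subgroup B) := by
    rw [Nat.dvd_iff_prime_pow_dvd_dvd]
    intro p k hp hk
    by_cases hk0 : k = 0
    · rw [hk0, pow_zero]; exact one_dvd _
    haveI := Fact.mk hp
    have hp2 : p ≠ 2 := by
      rintro rfl
      have h1 : 2 ∣ Nat.card X := (dvd_pow_self 2 hk0).trans hk
      exact (Nat.not_even_iff_odd.2 hX) (even_iff_two_dvd.2 h1)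
    let P0 : Sylow p X := default
    set P : Subgroup B := (P0 : Subgroup X).map X.subtype with hPdef
    have hPX : P ≤ X := Subgroup.map_subtype_le _
    have hPp : IsPGroup p P := P0.isPGroup'.map _
    have hPcard : Nat.card P = Nat.card P0 := (Nat.card_congr ((P0 : Subgroup X).equivMapOfInjective _ X.subtype_injective).toEquiv).symm
    have hkP : p ^ k ∣ Nat.card P := by
      rw [hPcard]
      exact P0.pow_dvd_card_of_pow_dvd_card hk
    have hfr := Sylow.normalizer_sup_eq_top P0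
    rw [← hPdef] at hfr
    set N : Subgroup B := Subgroup.normalizer (P : Set B) with hN
    have h4B : 4 ∣ Nat.card B := by rw [← hV]; exact Subgroup.card_subgroup_dvd_card V
    have h4N : 2 ^ 2 ∣ Nat.card N := by
      have h1 : Nat.card (N ⊔ X : Subgroup B) ∣ Nat.card N * Nat.card X := by
        have h2 := Subgroup.card_mul_index (X.subgroupOf N)
        have h3 : (N ⊔ X : Subgroup B) = ⊤ := hfr
        have h4 : X.relIndex N = X.index := by
          have h5 := Subgroup.relIndex_sup_right N X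
          rw [h3] at h5
          rw [← h5, Subgroup.relIndex_top_right]
        rw [h3, Subgroup.card_top, ← Subgroup.card_mul_index X, ← h4]
        rw [mul_comm (Nat.card N)]
        exact mul_dvd_mul_left _ (Subgroup.relIndex_dvd_card X N)
      rw [hfr, Subgroup.card_top] at h1
      have h2 : 4 ∣ Nat.card N * Nat.card X := h4B.trans h1
      have h3 : Nat.Coprime 4 (Nat.card X) := by
        have : Nat.Coprime (2 ^ 2) (Nat.card X) := Nat.Coprime.pow_left 2 ((Nat.coprime_two_left).2 hX)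
        exact this
      exact h3.dvd_of_dvd_mul_right h2
    obtain ⟨Q0, hQ0⟩ := Sylow.exists_subgroup_card_pow_prime (G := N) 2 h4N
    set Q : Subgroup B := Q0.map N.subtype with hQdef
    have hQN : Q ≤ N := Subgroup.map_subtype_le _
    have hQcard : Nat.card Q = 4 := by
      rw [(Nat.card_congr (Q0.equivMapOfInjective _ N.subtype_injective).toEquiv).symm, hQ0]
      norm_num
    -- elements of Q are involutions
    have hQ2 : ∀ q ∈ Q, q * q = 1 := by
      have hVp : IsPGroup 2 V := IsPGroup.of_card (n := 2) (by rw [hV]; norm_num)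
      let SV : Sylow 2 B := hVp.toSylow (fun h => (Nat.not_even_iff_odd.2 hVi) (even_iff_two_dvd.2 h))
      have hQp : IsPGroup 2 Q := IsPGroup.of_card (n := 2) (by rw [hQcard]; norm_num)
      obtain ⟨SQ, hSQ⟩ := hQp.exists_le_sylow
      obtain ⟨g, hg⟩ := MulAction.exists_smul_eq B SV SQ
      intro q hq
      have h1 : q ∈ (SQ : Subgroup B) := hSQ hq
      rw [← hg, Sylow.coe_subgroup_smul, Subgroup.mem_pointwise_smul_iff_inv_smul_mem] at h1
      have h2 : g⁻¹ * q * g ∈ V := by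
        have h3 : (MulAut.conj g)⁻¹ • q = g⁻¹ * q * g := by simp [MulAut.smul_def]
        rw [h3] at h1
        exact h1
      have h3 := hV2 _ h2
      calc q * q = g * ((g⁻¹ * q * g) * (g⁻¹ * q * g)) * g⁻¹ := by group
        _ = 1 := by rw [h3]; group
    -- generator of P
    haveI := hcyc p P hp hPX hPp
    obtain ⟨y, hy⟩ := IsCyclic.exists_generator (α := P)
    have hy' : ∀ x ∈ P, ∃ n : ℤ, y.1 ^ n = x := by
      intro x hx
      obtain ⟨n, hn⟩ := Subgroup.mem_zpowers_iff.1 (hy ⟨x, hx⟩)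
      exact ⟨n, by have := congrArg Subtype.val hn; simpa using this⟩
    have hact : ∀ q ∈ Q, q * y.1 * q⁻¹ = y.1 ∨ q * y.1 * q⁻¹ = y.1⁻¹ := by
      intro q hq
      exact pm hp hp2 hPp hy' y.2 (hQ2 q hq) ((Subgroup.mem_normalizer_iff.1 (hQN hq) y.1).1 y.2)
    obtain ⟨q, hq, hq1, hqy⟩ : ∃ q ∈ Q, q ≠ 1 ∧ q * y.1 * q⁻¹ = y.1 := by
      by_contra hcon
      push Not at hcon
      haveI : Fintype Q := Fintype.ofFinite Q
      have hc4 : Fintype.card Q = 4 := by rw [← Nat.card_eq_fintype_card, hQcard]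
      obtain ⟨q1, hq1⟩ : ∃ q1 : Q, q1 ∉ ({1} : Finset Q) := by
        by_contra hh; push Not at hh
        have := Finset.card_le_card (fun x _ => hh x : (Finset.univ : Finset Q) ⊆ {1})
        rw [Finset.card_univ, hc4, Finset.card_singleton] at this
        omega
      obtain ⟨q2, hq2⟩ : ∃ q2 : Q, q2 ∉ ({1, q1} : Finset Q) := by
        by_contra hh; push Not at hh
        have := (Finset.card_le_card (fun x _ => hh x : (Finset.univ : Finset Q) ⊆ {1, q1})).trans Finset.card_le_two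
        rw [Finset.card_univ, hc4] at this
        omega
      rw [Finset.mem_singleton] at hq1
      rw [Finset.mem_insert, Finset.mem_singleton, not_or] at hq2
      have e1 : q1.1 ≠ 1 := fun h => hq1 (Subtype.ext h)
      have e2 : q2.1 ≠ 1 := fun h => hq2.1 (Subtype.ext h)
      have i1 := (hact q1.1 q1.2).resolve_left (hcon q1.1 q1.2 e1)
      have i2 := (hact q2.1 q2.2).resolve_left (hcon q2.1 q2.2 e2)
      have e3 : q1.1 * q2.1 ≠ 1 := by
        intro h
        apply hq2.2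
        apply Subtype.ext
        have h1 : q1.1 * q1.1 = 1 := hQ2 _ q1.2
        calc q2.1 = q1.1 * (q1.1 * q2.1) := by rw [← mul_assoc, h1, one_mul]
          _ = q1.1 := by rw [h, mul_one]
      apply hcon (q1.1 * q2.1) (mul_mem q1.2 q2.2) e3
      calc q1.1 * q2.1 * y.1 * (q1.1 * q2.1)⁻¹ = q1.1 * (q2.1 * y.1 * q2.1⁻¹) * q1.1⁻¹ := by group
        _ = (q1.1 * y.1 * q1.1⁻¹)⁻¹ := by rw [i2]; group
        _ = y.1 := by rw [i1, inv_inv]
    have hPC : P ≤ X ⊓ Subgroup.centralizer {q} := by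
      refine le_inf hPX (fun x hx => ?_)
      obtain ⟨n, hn⟩ := hy' x hx
      rw [Subgroup.mem_centralizer_singleton_iff, ← hn]
      have h1 : Commute q y.1 := mul_inv_eq_iff_eq_mul.1 hqy
      exact (h1.zpow_right n).eq.symm
    obtain ⟨g, hg⟩ := hconj q s hq1 (hQ2 q hq) hs1 hs2
    have hcc : Nat.card (X ⊓ Subgroup.centralizer {q} : Subgroup B) = Nat.card (X ⊓ Subgroup.centralizer {s} : Subgroup B) := by
      refine Nat.card_congr (Equiv.ofBijective (fun x => (⟨g * x.1 * g⁻¹, ?_⟩ : (X ⊓ Subgroup.centralizer {s} : Subgroup B))) ⟨?_, ?_⟩)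
      · refine ⟨hXn.conj_mem _ x.2.1 g, ?_⟩
        have h1 := Subgroup.mem_centralizer_singleton_iff.1 x.2.2
        refine Subgroup.mem_centralizer_singleton_iff.2 ?_
        rw [← hg]
        calc g * x.1 * g⁻¹ * (g * q * g⁻¹) = g * (x.1 * q) * g⁻¹ := by group
          _ = g * (q * x.1) * g⁻¹ := by rw [h1]
          _ = g * q * g⁻¹ * (g * x.1 * g⁻¹) := by group
      · intro x x' hxx
        have h1 : g * x.1 * g⁻¹ = g * x'.1 * g⁻¹ := congrArg Subtype.val hxx
        exact Subtype.ext (mul_left_cancel (mul_right_cancel h1))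
      · intro x
        refine ⟨⟨g⁻¹ * x.1 * g, ?_, ?_⟩, Subtype.ext (by group)⟩
        · have h1 := hXn.conj_mem _ x.2.1 g⁻¹
          rwa [inv_inv] at h1
        · have h1 := Subgroup.mem_centralizer_singleton_iff.1 x.2.2
          refine Subgroup.mem_centralizer_singleton_iff.2 ?_
          have h2 : q = g⁻¹ * s * g := by rw [← hg]; group
          rw [h2]
          calc g⁻¹ * x.1 * g * (g⁻¹ * s * g) = g⁻¹ * (x.1 * s) * g := by group
            _ = g⁻¹ * (s * x.1) * g := by rw [h1]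
            _ = g⁻¹ * s * g * (g⁻¹ * x.1 * g) := by group
    rw [← hcc]
    exact hkP.trans (Subgroup.card_dvd_of_le hPC)
  have hle : X ≤ X ⊓ Subgroup.centralizer {s} := by
    have h1 : (X ⊓ Subgroup.centralizer {s} : Subgroup B) = X :=
      Subgroup.eq_of_le_of_card_ge inf_le_left (Nat.le_of_dvd Nat.card_pos key)
    rw [h1]
  intro x hx
  exact (Subgroup.mem_centralizer_singleton_iff.1 (hle hx).2).symm

end H31.BB4P4
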