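import Mathlib
import Cfsg.Agent.S0799
import Cfsg.Agent.Lib.H46.PSL2Orders
import Cfsg.Agent.Lib.H6.SLCard
import Cfsg.Agent.Lib.H25.SL2Card

/-! # Hall numbers: the groups `PSL(2,p)` without subgroups of order `m` -/

set_option autoImplicit false

namespace H31.HN

/-- arithmetic: decomposition of `m` -/
theorem exists_split {m : ℕ} (hm : 2 ≤ m) (h1 : ¬ IsPrimePow m) (h2 : m % 4 ≠ 2) :
    ∃ a b : ℕ, m = a * b ∧ a.Coprime b ∧ Odd b ∧ 2 < b ∧ 2 < a ∧
      (Odd a ∨ ∃ c, a = 2 * c ∧ Even c) := by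
  set r := m.minFac with hr
  have hrp : r.Prime := Nat.minFac_prime (by omega)
  have hm0 : m ≠ 0 := by omega
  have hrm : r ∣ m := Nat.minFac_dvd m
  set k := m.factorization r with hk
  have hk1 : 1 ≤ k := (hrp.dvd_iff_one_le_factorization hm0).mp hrm
  have hab : r ^ k * (m / r ^ k) = m := Nat.ordProj_mul_ordCompl_eq_self m r
  have hcop : (r ^ k).Coprime (m / r ^ k) := by
    apply Nat.Coprime.pow_left
    exact Nat.coprime_ordCompl hrp hm0
  have hb1 : m / r ^ k ≠ 1 := by
    intro h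
    rw [h, mul_one] at hab
    exact h1 (hab ▸ hrp.isPrimePow.pow (by omega))
  have hb0 : m / r ^ k ≠ 0 := by
    intro h
    rw [h, mul_zero] at hab
    omega
  have hbodd : Odd (m / r ^ k) := by
    rw [← Nat.not_even_iff_odd, even_iff_two_dvd]
    intro h
    have h2m : 2 ∣ m := h.trans (Nat.div_dvd_of_dvd (Nat.ordProj_dvd m r))
    have hr2 : r = 2 := by
      rw [hr]
      exact (Nat.minFac_eq_two_iff m).mpr h2m
    have : 2 ∣ Nat.gcd (r ^ k) (m / r ^ k) := Nat.dvd_gcd (by rw [hr2]; exact dvd_pow_self 2 (by omega)) h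
    rw [hcop] at this
    omega
  have hb2 : 2 < m / r ^ k := by
    obtain ⟨t, ht⟩ := hbodd
    omega
  refine ⟨r ^ k, m / r ^ k, hab.symm, hcop, hbodd, hb2, ?_, ?_⟩
  · rcases hrp.eq_two_or_odd' with h | h
    · have hk2 : 2 ≤ k := by
        by_contra hlt
        have hk1' : k = 1 := by omega
        apply h2
        rw [hk1', h, pow_one] at hab
        obtain ⟨t, ht⟩ := hbodd
        rw [hk1', h, pow_one] at ht
        omega
      calc 2 < 2 ^ 2 := by norm_num
        _ ≤ 2 ^ k := Nat.pow_le_pow_right (by norm_num) hk2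
        _ = r ^ k := by rw [h]
    · have h3 : 3 ≤ r := by
        have := hrp.two_le
        obtain ⟨t, ht⟩ := h
        omega
      calc 2 < r := by omega
        _ = r ^ 1 := (pow_one r).symm
        _ ≤ r ^ k := Nat.pow_le_pow_right (by omega) hk1
  · rcases hrp.eq_two_or_odd' with h | h
    · right
      have hk2 : 2 ≤ k := by
        by_contra hlt
        have hk1' : k = 1 := by omega
        apply h2
        rw [hk1', h, pow_one] at hab
        obtain ⟨t, ht⟩ := hbodd
        rw [hk1', h, pow_one] at ht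
        omega
      refine ⟨2 ^ (k - 1), ?_, ?_⟩
      · rw [h, ← pow_succ']
        congr 1
        omega
      · rw [Nat.even_pow]
        exact ⟨even_two, by omega⟩
    · left
      exact h.pow

/-- a prime with the right congruences -/
theorem exists_prime {m a b : ℕ} (hm : m = a * b) (hab : a.Coprime b) (hb : Odd b)
    (hb2 : 2 < b) (ha2 : 2 < a) (ha : Odd a ∨ ∃ c, a = 2 * c ∧ Even c) :
    ∃ p : ℕ, p.Prime ∧ m + 1 < p ∧ (∃ s, p - 1 = a * (1 + a * s)) ∧ (∃ s, p + 1 = b * (1 + b * s)) := by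
  have hcop : (a ^ 2).Coprime (b ^ 2) := Nat.Coprime.pow 2 2 hab
  obtain ⟨x, hx1, hx2⟩ := Nat.chineseRemainder hcop (1 + a) (b - 1)
  have hxa : x.Coprime (a ^ 2) := by
    apply Nat.Coprime.pow_right
    have h1 : x ≡ 1 [MOD a] := by
      have := hx1.of_dvd (Dvd.intro_left (a ^ 1) (by ring) : a ∣ a ^ 2)
      refine this.trans ?_
      simp [Nat.ModEq]
    rw [Nat.coprime_iff_gcd_eq_one, h1.gcd_eq]
    simp
  have hxb : x.Coprime (b ^ 2) := by
    apply Nat.Coprime.pow_right
    have h1 : x + 1 ≡ 0 [MOD b] := by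
      have := (hx2.of_dvd (Dvd.intro_left (b ^ 1) (by ring) : b ∣ b ^ 2)).add_right 1
      refine this.trans ?_
      rw [Nat.sub_add_cancel (by omega)]
      simp [Nat.ModEq]
    have h2 : b ∣ x + 1 := (Nat.modEq_zero_iff_dvd).mp h1
    rw [Nat.coprime_iff_gcd_eq_one]
    have h3 : Nat.gcd x b ∣ x + 1 := (Nat.gcd_dvd_right x b).trans h2
    have h4 : Nat.gcd x b ∣ 1 := (Nat.dvd_add_right (Nat.gcd_dvd_left x b)).mp h3
    exact Nat.dvd_one.mp h4
  have hx : x.Coprime (a ^ 2 * b ^ 2) := Nat.Coprime.mul_right hxa hxb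
  have hne : a ^ 2 * b ^ 2 ≠ 0 := by positivity
  haveI : NeZero (a ^ 2 * b ^ 2) := ⟨hne⟩
  obtain ⟨p, hpgt, hp, hpx⟩ := Nat.forall_exists_prime_gt_and_modEq (m + 1) hne hx
  refine ⟨p, hp, hpgt, ?_, ?_⟩
  · have h1 : p ≡ 1 + a [MOD a ^ 2] := (hpx.of_dvd (Dvd.intro _ rfl)).trans hx1
    have h2 : 1 + a ≤ p := by
      rw [hm] at hpgt
      nlinarith
    have h3 : a ^ 2 ∣ p - (1 + a) := (Nat.modEq_iff_dvd' h2).mp h1.symm
    obtain ⟨s, hs⟩ := h3
    refine ⟨s, ?_⟩
    have h4 : p = a ^ 2 * s + (1 + a) := by omega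
    rw [h4]
    have : a ^ 2 * s + (1 + a) - 1 = a ^ 2 * s + a := by omega
    rw [this]
    ring
  · have h1 : p ≡ b - 1 [MOD b ^ 2] := (hpx.of_dvd (Dvd.intro_left _ rfl)).trans hx2
    have h2 : b - 1 ≤ p := by
      rw [hm] at hpgt
      nlinarith [Nat.sub_le b 1]
    have h3 : b ^ 2 ∣ p - (b - 1) := (Nat.modEq_iff_dvd' h2).mp h1.symm
    obtain ⟨s, hs⟩ := h3
    refine ⟨s, ?_⟩
    have h4 : p + 1 = b ^ 2 * s + b := by omega
    rw [h4]
    ring


open Matrix in
/-- order of `PSL(2,p)` -/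
theorem card_psl_prime {p : ℕ} [Fact p.Prime] (hp : p ≠ 2) :
    2 * Nat.card (Matrix.ProjectiveSpecialLinearGroup (Fin 2) (ZMod p)) = p * ((p - 1) * (p + 1)) := by
  have h := H6.SLCard.card_psl (F := ZMod p) (n := 2) (by norm_num)
  have hp2 := (Fact.out : p.Prime).two_le
  have hodd : Odd p := (Fact.out : p.Prime).odd_of_ne_two hp
  have hg : Nat.gcd 2 (p - 1) = 2 := by
    obtain ⟨t, ht⟩ := hodd
    apply Nat.gcd_eq_left
    exact ⟨t, by omega⟩
  rw [ZMod.card, hg, Fin.prod_univ_two] at h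
  simp only [Fin.val_zero, Fin.val_one, pow_zero, pow_one] at h
  obtain ⟨n, rfl⟩ : ∃ n, p = n + 1 := ⟨p - 1, by omega⟩
  have h1 : (n + 1) ^ 2 - 1 = n * (n + 2) := by
    have : (n + 1) ^ 2 = n * (n + 2) + 1 := by ring
    rw [this]; simp
  have h2 : (n + 1) ^ 2 - (n + 1) = n * (n + 1) := by
    have : (n + 1) ^ 2 = n * (n + 1) + (n + 1) := by ring
    rw [this]; simp
  rw [h1, h2] at h
  have hn : 0 < n := by omega
  simp only [Nat.add_sub_cancel] at h ⊢
  apply Nat.eq_of_mul_eq_mul_left hn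
  calc n * (2 * Nat.card (Matrix.ProjectiveSpecialLinearGroup (Fin 2) (ZMod (n + 1))))
      = 2 * (n * Nat.card (Matrix.ProjectiveSpecialLinearGroup (Fin 2) (ZMod (n + 1)))) := by ring
    _ = n * (n + 2) * (n * (n + 1)) := h
    _ = n * ((n + 1) * (n * (n + 1 + 1))) := by ring

/-- `m` divides exactly the order of `PSL(2,p)` -/
theorem hall_divisor {m a b p g : ℕ} (hm : m = a * b) (hab : a.Coprime b) (hb : Odd b)
    (ha : Odd a ∨ ∃ c, a = 2 * c ∧ Even c)
    (h1 : ∃ s, p - 1 = a * (1 + a * s)) (h2 : ∃ s, p + 1 = b * (1 + b * s)) (hp : 2 ≤ p)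
    (hg : 2 * g = p * ((p - 1) * (p + 1))) : m ∣ g ∧ m.Coprime (g / m) := by
  obtain ⟨s, hs⟩ := h1
  obtain ⟨t, ht⟩ := h2
  -- the `a`-part
  have key : ∀ d e : ℕ, 0 < d → g = d * e → d.Coprime e → d ∣ g ∧ d.Coprime (g / d) := by
    intro d e hd h h'
    refine ⟨⟨e, h⟩, ?_⟩
    rw [h, Nat.mul_div_cancel_left _ hd]
    exact h'
  have hapos : 0 < a := by
    rcases Nat.eq_zero_or_pos a with h | h
    · subst h; simp at hs; omega
    · exact h
  have hbpos : 0 < b := hb.pos
  have hA : ∃ e, g = a * e ∧ a.Coprime e := by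
    rcases ha with ha | ⟨c, hac, hc⟩
    · have hdvd : a ∣ g := by
        have : a ∣ 2 * g := by
          rw [hg, hs]
          exact ⟨p * ((1 + a * s) * (p + 1)), by ring⟩
        exact (Nat.Coprime.dvd_of_dvd_mul_left (by
          rw [Nat.coprime_comm]; exact (Nat.coprime_two_left).mpr ha) this)
      obtain ⟨e, he⟩ := hdvd
      refine ⟨e, he, ?_⟩
      have h3 : 2 * e = p * ((1 + a * s) * (p + 1)) := by
        apply Nat.eq_of_mul_eq_mul_left hapos
        calc a * (2 * e) = 2 * g := by rw [he]; ring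
          _ = _ := by rw [hg, hs]; ring
      have hpe : p = 1 + a * (1 + a * s) := by omega
      have c1 : a.Coprime p := by
        rw [hpe]; simp
      have c2 : a.Coprime (1 + a * s) := by simp
      have c3 : a.Coprime (p + 1) := by
        rw [hpe]
        have : 1 + a * (1 + a * s) + 1 = 2 + a * (1 + a * s) := by ring
        rw [this]
        simp only [Nat.coprime_add_mul_left_right]
        exact (Nat.coprime_two_right).mpr ha
      have c4 : a.Coprime (2 * e) := by
        rw [h3]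
        exact Nat.Coprime.mul_right c1 (Nat.Coprime.mul_right c2 c3)
      exact Nat.Coprime.coprime_mul_left_right c4
    · have hpe : p = 1 + a * (1 + a * s) := by omega
      refine ⟨p * ((1 + a * s) * (1 + c * (1 + a * s))), ?_, ?_⟩
      · have : 2 * g = 2 * (a * (p * ((1 + a * s) * (1 + c * (1 + a * s))))) := by
          rw [hg, hs]
          have : p + 1 = 2 * (1 + c * (1 + a * s)) := by
            rw [hpe, hac]; ring
          rw [this]; ring
        omega
      · have c1 : a.Coprime p := by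
          rw [hpe]; simp
        have c2 : a.Coprime (1 + a * s) := by simp
        have c3 : a.Coprime (1 + c * (1 + a * s)) := by
          rw [hac]
          apply Nat.Coprime.mul_left
          · rw [Nat.coprime_two_left]
            obtain ⟨c', hc'⟩ := hc
            refine ⟨c' * (1 + 2 * c * s), ?_⟩
            rw [hc']; ring
          · simp
        exact Nat.Coprime.mul_right c1 (Nat.Coprime.mul_right c2 c3)
  have hB : ∃ e, g = b * e ∧ b.Coprime e := by
    have hdvd : b ∣ g := by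
      have : b ∣ 2 * g := by
        rw [hg, ht]
        exact ⟨p * ((p - 1) * (1 + b * t)), by ring⟩
      exact (Nat.Coprime.dvd_of_dvd_mul_left (by
        rw [Nat.coprime_comm]; exact (Nat.coprime_two_left).mpr hb) this)
    obtain ⟨e, he⟩ := hdvd
    refine ⟨e, he, ?_⟩
    have h3 : 2 * e = p * ((p - 1) * (1 + b * t)) := by
      apply Nat.eq_of_mul_eq_mul_left hbpos
      calc b * (2 * e) = 2 * g := by rw [he]; ring
        _ = _ := by rw [hg, ht]; ring
    have c1 : b.Coprime p := by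
      have h5 : Nat.gcd b p ∣ p + 1 := (Nat.gcd_dvd_left b p).trans ⟨_, ht⟩
      have h6 : Nat.gcd b p ∣ 1 := (Nat.dvd_add_right (Nat.gcd_dvd_right b p)).mp h5
      exact Nat.dvd_one.mp h6
    have c2 : b.Coprime (1 + b * t) := by simp
    have c3 : b.Coprime (p - 1) := by
      have h5 : Nat.gcd b (p - 1) ∣ p + 1 := (Nat.gcd_dvd_left b (p - 1)).trans ⟨_, ht⟩
      have h6 : Nat.gcd b (p - 1) ∣ 2 := by
        have : p + 1 = (p - 1) + 2 := by omega
        rw [this] at h5
        exact (Nat.dvd_add_right (Nat.gcd_dvd_right b (p - 1))).mp h5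
      have h7 : (2 : ℕ).Coprime b := (Nat.coprime_two_left).mpr hb
      have h8 : Nat.gcd b (p - 1) ∣ Nat.gcd 2 b := Nat.dvd_gcd h6 (Nat.gcd_dvd_left b (p - 1))
      rw [h7] at h8
      exact Nat.dvd_one.mp h8
    have c4 : b.Coprime (2 * e) := by
      rw [h3]
      exact Nat.Coprime.mul_right c1 (Nat.Coprime.mul_right c3 c2)
    exact Nat.Coprime.coprime_mul_left_right c4
  obtain ⟨e, he, hea⟩ := hA
  obtain ⟨f, hf, hfb⟩ := hB
  have hmg : m ∣ g := by
    rw [hm]
    exact Nat.Coprime.mul_dvd_of_dvd_of_dvd hab ⟨e, he⟩ ⟨f, hf⟩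
  obtain ⟨q, hq⟩ := hmg
  have hmpos : 0 < m := by rw [hm]; positivity
  refine ⟨⟨q, hq⟩, ?_⟩
  rw [hq, Nat.mul_div_cancel_left _ hmpos, hm]
  have e1 : e = b * q := by
    apply Nat.eq_of_mul_eq_mul_left hapos
    rw [← he, hq, hm]; ring
  have e2 : f = a * q := by
    apply Nat.eq_of_mul_eq_mul_left hbpos
    rw [← hf, hq, hm]; ring
  rw [e1] at hea
  rw [e2] at hfb
  exact Nat.Coprime.mul_left (Nat.Coprime.coprime_mul_left_right hea) (Nat.Coprime.coprime_mul_left_right hfb)

/-- `m` does not divide `p ± 1` -/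
theorem not_dvd {m a b p : ℕ} (hm : m = a * b) (hb2 : 2 < b) (ha2 : 2 < a)
    (h1 : ∃ s, p - 1 = a * (1 + a * s)) (h2 : ∃ s, p + 1 = b * (1 + b * s)) (hp : 2 ≤ p) :
    ¬ m ∣ p + 1 ∧ ¬ m ∣ p - 1 := by
  have hpp : p + 1 = (p - 1) + 2 := by omega
  constructor
  · intro h
    have h3 : a ∣ p + 1 := (Dvd.intro _ hm.symm).trans h
    obtain ⟨s, hs⟩ := h1
    rw [hpp] at h3
    have h4 : a ∣ 2 := (Nat.dvd_add_right ⟨_, hs⟩).mp h3
    have := Nat.le_of_dvd (by norm_num) h4
    omega
  · intro h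
    have h3 : b ∣ p - 1 := (Dvd.intro_left _ hm.symm).trans h
    obtain ⟨s, hs⟩ := h2
    have h5 : b ∣ p + 1 := ⟨_, hs⟩
    rw [hpp] at h5
    have h4 : b ∣ 2 := (Nat.dvd_add_right h3).mp h5
    have := Nat.le_of_dvd (by norm_num) h4
    omega

open Matrix in
/-- subgroups of order prime to `p` of the normalizer of a Sylow `p`-subgroup of `PSL(2,p)` -/
theorem borel_case {p : ℕ} [Fact p.Prime] (hp : p ≠ 2)
    (P : Sylow p (Matrix.ProjectiveSpecialLinearGroup (Fin 2) (ZMod p)))
    (K : Subgroup (Matrix.ProjectiveSpecialLinearGroup (Fin 2) (ZMod p)))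
    (hK : K ≤ Subgroup.normalizer ((P : Subgroup (Matrix.ProjectiveSpecialLinearGroup (Fin 2) (ZMod p))) :
      Set (Matrix.ProjectiveSpecialLinearGroup (Fin 2) (ZMod p))))
    (hpK : ¬ p ∣ Nat.card K) : Nat.card K ∣ p - 1 := by
  classical
  set G := Matrix.ProjectiveSpecialLinearGroup (Fin 2) (ZMod p) with hGdef
  haveI hfG : Finite G := inferInstanceAs (Finite (_ ⧸ _))
  have hpp : p.Prime := Fact.out
  have hp3 : 3 ≤ p := by
    have := hpp.two_le
    omega
  have hcard := card_psl_prime hp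
  -- the order of `P`
  have hPcard : Nat.card P = p := by
    rw [P.card_eq_multiplicity]
    have hG0 : Nat.card G ≠ 0 := Nat.card_pos.ne'
    have h1 : (2 * Nat.card G).factorization p = 1 := by
      rw [hcard, Nat.factorization_mul hpp.ne_zero (by
        have : 0 < (p - 1) * (p + 1) := Nat.mul_pos (by omega) (by omega)
        omega), Finsupp.add_apply, hpp.factorization_self]
      have : ¬ p ∣ (p - 1) * (p + 1) := by
        intro h
        rcases (hpp.dvd_mul).mp h with h | h
        · have := Nat.le_of_dvd (by omega) h; omega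
        · have : p ∣ 1 := (Nat.dvd_add_right (dvd_refl p)).mp h
          exact hpp.one_lt.ne' (Nat.dvd_one.mp this)
      rw [Nat.factorization_eq_zero_of_not_dvd this]
    have h2 : (2 * Nat.card G).factorization p = (Nat.card G).factorization p := by
      rw [Nat.factorization_mul (by norm_num) hG0, Finsupp.add_apply]
      have : ¬ p ∣ 2 := fun h => by
        have := Nat.le_of_dvd (by norm_num) h; omega
      rw [Nat.factorization_eq_zero_of_not_dvd this, zero_add]
    rw [h2] at h1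
    rw [h1, pow_one]
  haveI : Fintype P := Fintype.ofFinite P
  have hPc : IsCyclic P := isCyclic_of_prime_card (p := p) hPcard
  -- the action
  let φ : K →* MulAut P := (P : Subgroup G).normalizerMonoidHom.comp (Subgroup.inclusion hK)
  have hφ : Function.Injective φ := by
    rw [injective_iff_map_eq_one]
    intro x hx
    have hcomm : ∀ y : G, y ∈ (P : Subgroup G) → (x : G) * y = y * x := by
      intro y hy
      have h1 : ((φ x) ⟨y, hy⟩ : G) = y := by rw [hx]; rfl
      have h2 : ((φ x) ⟨y, hy⟩ : G) = (x : G) * y * (x : G)⁻¹ := rfl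
      rw [h2] at h1
      exact mul_inv_eq_iff_eq_mul.mp h1
    obtain ⟨y, hy⟩ := hPc.exists_generator
    have hyo : orderOf (y : G) = p := by
      rw [Subgroup.orderOf_coe, orderOf_eq_card_of_forall_mem_zpowers hy]
      exact hPcard
    have hxo : (orderOf (x : G)).Coprime (orderOf (y : G)) := by
      rw [hyo, Nat.coprime_comm, hpp.coprime_iff_not_dvd, Subgroup.orderOf_coe]
      exact fun h => hpK (h.trans (orderOf_dvd_natCard x))
    have hcom : Commute (x : G) (y : G) := hcomm y y.2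
    have ho : orderOf ((x : G) * y) = orderOf (x : G) * p := by
      rw [hcom.orderOf_mul_eq_mul_orderOf_of_coprime hxo, hyo]
    have htri := H46.PSL2Orders.order_trichotomy (F := ZMod p) p ((x : G) * y)
    rw [ho, Nat.card_eq_fintype_card, ZMod.card] at htri
    have hg : Nat.gcd 2 (p - 1) = 2 := by
      obtain ⟨t, ht⟩ := hpp.odd_of_ne_two hp
      apply Nat.gcd_eq_left
      exact ⟨t, by omega⟩
    rw [hg] at htri
    have h1 : orderOf (x : G) = 1 := by
      rcases htri with h | h | h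
      · have h2 : orderOf (x : G) * p ∣ 1 * p := by rwa [one_mul]
        exact Nat.dvd_one.mp (Nat.dvd_of_mul_dvd_mul_right hpp.pos h2)
      · exfalso
        have h2 : p ∣ (p - 1) / 2 := (Dvd.intro_left _ rfl).trans h
        have := Nat.le_of_dvd (by omega) h2
        omega
      · exfalso
        have h2 : p ∣ (p + 1) / 2 := (Dvd.intro_left _ rfl).trans h
        have := Nat.le_of_dvd (by omega) h2
        omega
    rw [orderOf_eq_one_iff] at h1
    exact Subtype.ext h1
  have hdvd : Nat.card K ∣ Nat.card (MulAut P) := Subgroup.card_dvd_of_injective φ hφ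
  have hAut : Nat.card (MulAut P) = p - 1 := by
    haveI := hPc
    have e := (IsCyclic.mulAutMulEquiv P)
    rw [Nat.card_congr e.toEquiv, hPcard, Nat.card_eq_fintype_card, ZMod.card_units_eq_totient, Nat.totient_prime hpp]
  rwa [hAut] at hdvd


open Matrix in
/-- The forward direction of the theorem on Hall numbers. -/
theorem forward (m : ℕ) (hm : 2 ≤ m)
    (H : ∀ (G : Type) [Group G] [Finite G], m ∣ Nat.card G → m.Coprime (Nat.card G / m) →
        ∃ H : Subgroup G, Nat.card H = m) :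
    IsPrimePow m ∨ m % 4 = 2 ∨ m = 12 ∨ m = 24 ∨ m = 60 := by
  classical
  by_contra hcon
  push_neg at hcon
  obtain ⟨n1, n2, n12, n24, n60⟩ := hcon
  obtain ⟨a, b, hab, hcop, hb, hb2, ha2, ha⟩ := exists_split hm n1 n2
  obtain ⟨p, hp, hmp, hs, ht⟩ := exists_prime hab hcop hb hb2 ha2 ha
  haveI : Fact p.Prime := ⟨hp⟩
  have hp2 : p ≠ 2 := by omega
  have hG := card_psl_prime (p := p) hp2
  haveI hfG : Finite (Matrix.ProjectiveSpecialLinearGroup (Fin 2) (ZMod p)) :=
    inferInstanceAs (Finite (_ ⧸ _))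
  obtain ⟨hd1, hd2⟩ := hall_divisor hab hcop hb ha hs ht hp.two_le hG
  obtain ⟨nd1, nd2⟩ := not_dvd hab hb2 ha2 hs ht hp.two_le
  obtain ⟨Y, hY⟩ := H (Matrix.ProjectiveSpecialLinearGroup (Fin 2) (ZMod p)) hd1 hd2
  have hgcd : Nat.gcd 2 (p - 1) = 2 := by
    obtain ⟨t, ht⟩ := hp.odd_of_ne_two hp2
    apply Nat.gcd_eq_left
    exact ⟨t, by omega⟩
  have h2p : 2 ∣ p + 1 := by
    obtain ⟨t, ht⟩ := hp.odd_of_ne_two hp2
    exact ⟨t + 1, by omega⟩
  have h2p' : 2 ∣ p - 1 := by
    obtain ⟨t, ht⟩ := hp.odd_of_ne_two hp2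
    exact ⟨t, by omega⟩
  have hpm : ¬ p ∣ m := fun h => by
    have := Nat.le_of_dvd (by omega) h
    omega
  rcases Cfsg.Agent.S0799.result (F := ZMod p) (q := p) (ZMod.card p) p Y with
    ⟨k, hk, hk2⟩ | ⟨P, K, hK, ⟨e⟩⟩ | ⟨⟨e⟩⟩ | ⟨⟨e⟩⟩ | ⟨⟨e⟩⟩ | ⟨K, _, _, r, hr, hK⟩
  · rw [hgcd] at hk
    rcases hk2 with ⟨-, hk3⟩ | ⟨⟨e⟩⟩
    · rw [hY] at hk3
      rw [← hk3] at hk
      rcases hk with h | h
      · exact nd1 (h.trans (Nat.div_dvd_of_dvd h2p))
      · exact nd2 (h.trans (Nat.div_dvd_of_dvd h2p'))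
    · have hc := Nat.card_congr e.toEquiv
      rw [hY, DihedralGroup.nat_card] at hc
      rcases hk with h | h
      · apply nd1
        rw [hc]
        have := Nat.mul_dvd_mul_left 2 h
        rwa [Nat.mul_div_cancel' h2p] at this
      · apply nd2
        rw [hc]
        have := Nat.mul_dvd_mul_left 2 h
        rwa [Nat.mul_div_cancel' h2p'] at this
  · have hc := Nat.card_congr e.toEquiv
    rw [hY] at hc
    apply nd2
    rw [hc]
    exact borel_case hp2 P K hK (by rw [← hc]; exact hpm)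
  · have hc := Nat.card_congr e.toEquiv
    rw [hY, nat_card_alternatingGroup] at hc
    apply n12
    rw [hc]; simp [Nat.factorial]
  · have hc := Nat.card_congr e.toEquiv
    rw [hY, Nat.card_perm] at hc
    apply n24
    rw [hc]; simp [Nat.factorial]
  · have hc := Nat.card_congr e.toEquiv
    rw [hY, nat_card_alternatingGroup] at hc
    apply n60
    rw [hc]; simp [Nat.factorial]
  · have hKp : Fintype.card K = p := by
      have h1 : r ≠ 0 := by
        intro h
        rw [h, pow_zero] at hr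
        exact hp.one_lt.ne hr
      have h2 : Fintype.card K ∣ p := by
        rw [← hr]
        exact dvd_pow_self _ h1
      rcases (Nat.dvd_prime hp).mp h2 with h | h
      · rw [h, one_pow] at hr
        exact absurd hr hp.one_lt.ne
      · exact h
    have hSL : Nat.card (Matrix.SpecialLinearGroup (Fin 2) K) = p * (p ^ 2 - 1) := by
      rw [H25.SL2Card.card_SL2, hKp]
    apply hpm
    rcases hK with ⟨⟨e⟩⟩ | ⟨⟨e⟩⟩
    · have hc := Nat.card_congr e.toEquiv
      rw [hY] at hc
      have h := H6.SLCard.card_psl (F := K) (n := 2) (by norm_num)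
      rw [hKp, hgcd, Fin.prod_univ_two] at h
      simp only [Fin.val_zero, Fin.val_one, pow_zero, pow_one] at h
      rw [← hc] at h
      have h1 : p ∣ 2 * ((p - 1) * m) := by
        rw [h]
        have : p ∣ p ^ 2 - p := by
          apply Nat.dvd_sub (dvd_pow_self p (by norm_num)) (dvd_refl p)
        exact this.mul_left _
      rcases (hp.dvd_mul).mp h1 with h2 | h2
      · have := Nat.le_of_dvd (by norm_num) h2
        have := hp.two_le
        omega
      · rcases (hp.dvd_mul).mp h2 with h3 | h3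
        · have := Nat.le_of_dvd (by have := hp.two_le; omega) h3
          have := hp.two_le
          omega
        · exact h3
    · have hc := Nat.card_congr e.toEquiv
      rw [hY, H6.SLCard.card_pgl, hSL] at hc
      rw [hc]
      exact dvd_mul_right _ _

end H31.HN
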