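import Cfsg.Agent.Lib.H31.HNb

/-! # Hall numbers: automorphisms of groups of order eight -/

set_option autoImplicit false

open Cfsg Subgroup

namespace H31.HN

universe u

/-- automorphisms of order `5` or `7` of a group of order `8` -/
theorem aut_eight {Q : Type*} [Group Q] [Finite Q] (hQ : Nat.card Q = 8) (β : MulAut Q) {r : ℕ}
    (hr : r = 5 ∨ r = 7) (hβ : orderOf β = r) :
    ∀ x : Q, x ≠ 1 → ∀ y : Q, y ≠ 1 → ∃ γ ∈ zpowers β, γ x = y := by
  classical
  have hrp : r.Prime := by rcases hr with h | h <;> rw [h] <;> decide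
  haveI : Fact r.Prime := ⟨hrp⟩
  haveI := Fintype.ofFinite Q
  -- the fixed subgroup
  let F : Subgroup Q := MonoidHom.eqLocus β.toMonoidHom (MonoidHom.id Q)
  have hF : ∀ x, x ∈ F ↔ β x = x := fun x => Iff.rfl
  have hne : β ≠ 1 := by
    intro h
    rw [h, orderOf_one] at hβ
    rcases hr with h' | h' <;> omega
  have hFtop : Nat.card F ≠ 8 := by
    intro h
    have : F = ⊤ := Subgroup.eq_top_of_card_eq F (by rw [h, hQ])
    apply hne
    ext x
    have : x ∈ F := by rw [this]; trivial
    exact (hF x).mp this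
  have hcard : Nat.card (zpowers β) = r := by rw [Nat.card_zpowers, hβ]
  have hpg : IsPGroup r (zpowers β) := IsPGroup.of_card (n := 1) (by rw [hcard, pow_one])
  have hfix : (MulAction.fixedPoints (zpowers β) Q) = (F : Set Q) := by
    ext x
    simp only [MulAction.mem_fixedPoints, SetLike.mem_coe, hF]
    constructor
    · intro h
      exact h ⟨β, mem_zpowers β⟩
    · rintro h ⟨γ, hγ⟩
      obtain ⟨k, rfl⟩ := mem_zpowers_iff.mp hγ
      have : β ∈ MulAction.stabilizer (MulAut Q) x := h
      exact (MulAction.stabilizer (MulAut Q) x).zpow_mem this k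
  have hmod : Nat.card Q ≡ Nat.card F [MOD r] := by
    have h := hpg.card_modEq_card_fixedPoints Q
    rw [hfix] at h
    exact h
  have hdvd : Nat.card F ∣ 8 := by rw [← hQ]; exact Subgroup.card_subgroup_dvd_card F
  have hle : Nat.card F ≤ 8 := Nat.le_of_dvd (by norm_num) hdvd
  rw [hQ] at hmod
  have h1 : r = 7 ∧ Nat.card F = 1 := by
    have hpos : 0 < Nat.card F := Nat.card_pos
    rcases hr with h | h
    · subst h
      exfalso
      unfold Nat.ModEq at hmod
      generalize Nat.card F = f at *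
      interval_cases f <;> simp_all
    · subst h
      refine ⟨rfl, ?_⟩
      unfold Nat.ModEq at hmod
      generalize Nat.card F = f at *
      interval_cases f <;> simp_all
  obtain ⟨hr7, hF1⟩ := h1
  subst hr7
  intro x hx y hy
  have horb : Nat.card (MulAction.orbit (zpowers β) x) ∣ 7 := by
    rw [← hcard]
    haveI : Finite (zpowers β) := Nat.finite_of_card_ne_zero (by omega)
    have := MulAction.card_orbit_mul_card_stabilizer_eq_card_group (zpowers β) x
    exact Dvd.intro _ (by simpa [Nat.card_eq_fintype_card] using this)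
  have horb7 : Nat.card (MulAction.orbit (zpowers β) x) = 7 := by
    rcases (Nat.dvd_prime (by decide)).mp horb with h | h
    · exfalso
      apply hx
      have h3 : x ∈ F := by
        rw [hF]
        have h4 := (Nat.card_eq_one_iff_unique.mp h).1
        have h5 := h4.elim ⟨x, MulAction.mem_orbit_self x⟩
          ⟨(⟨β, mem_zpowers β⟩ : zpowers β) • x, MulAction.mem_orbit x _⟩
        exact (congrArg Subtype.val h5).symm
      rw [Subgroup.card_eq_one] at hF1
      rw [hF1] at h3
      exact h3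
    · exact h
  have hsub : MulAction.orbit (zpowers β) x ⊆ ({1}ᶜ : Set Q) := by
    rintro _ ⟨⟨γ, hγ⟩, rfl⟩
    simp only [Set.mem_compl_iff, Set.mem_singleton_iff]
    intro h
    apply hx
    have : γ x = γ 1 := by rw [map_one]; exact h
    exact γ.injective this
  have hc7 : (({1}ᶜ : Set Q)).ncard = 7 := by
    rw [Set.ncard_compl, Set.ncard_singleton, hQ]
  have heq : MulAction.orbit (zpowers β) x = ({1}ᶜ : Set Q) := by
    apply Set.eq_of_subset_of_ncard_le hsub
    rw [hc7, ← Nat.card_coe_set_eq, horb7]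
  have hyo : y ∈ MulAction.orbit (zpowers β) x := by
    rw [heq]; simpa using hy
  obtain ⟨⟨γ, hγ⟩, hγx⟩ := hyo
  exact ⟨γ, hγ, hγx⟩

/-- action of an element of order prime to `6` on a group of order eight -/
theorem trans_of_eight {G : Type*} [Group G] [Finite G] {Q : Subgroup G} (hQ : Nat.card Q = 8) {g : G}
    (hg : g ∈ normalizer (Q : Set G)) (h2 : (orderOf g).Coprime 2) (h3 : ¬ 3 ∣ orderOf g)
    (hc : g ∉ centralizer (Q : Set G)) :
    ∀ x ∈ Q, x ≠ 1 → ∀ y ∈ Q, y ≠ 1 → ∃ h ∈ zpowers g, h * x * h⁻¹ = y := by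
  classical
  set g' : normalizer (Q : Set G) := ⟨g, hg⟩ with hg'
  set α : MulAut Q := Q.normalizerMonoidHom g' with hα
  have hα1 : α ≠ 1 := by
    intro h
    apply hc
    rw [mem_centralizer_iff]
    intro x hx
    have h4 : ((α ⟨x, hx⟩ : Q) : G) = x := by rw [h]; rfl
    have h5 : ((α ⟨x, hx⟩ : Q) : G) = g * x * g⁻¹ := rfl
    rw [h5] at h4
    exact (mul_inv_eq_iff_eq_mul.mp h4).symm
  have hord : orderOf α ∣ orderOf g := by
    have h4 : orderOf α ∣ orderOf g' := orderOf_map_dvd _ _
    rwa [← Subgroup.orderOf_coe] at h4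
  have hα0 : orderOf α ≠ 1 := fun h => hα1 (orderOf_eq_one_iff.mp h)
  obtain ⟨r, hr, hrα⟩ := Nat.exists_prime_and_dvd hα0
  have hr8 : r ∣ (8 : ℕ).factorial := by
    rw [← hQ]
    exact (hrα.trans (orderOf_dvd_natCard α)).trans card_mulAut_dvd
  have hrle : r ≤ 8 := (hr.dvd_factorial).mp hr8
  have hr57 : r = 5 ∨ r = 7 := by
    have hr2 : r ≠ 2 := by
      intro h
      subst h
      have := Nat.Coprime.eq_one_of_dvd (h2.symm) (hrα.trans hord)
      omega
    have hr3 : r ≠ 3 := by
      intro h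
      subst h
      exact h3 (hrα.trans hord)
    interval_cases r <;> first | omega | (exfalso; revert hr; decide)
  set β : MulAut Q := α ^ (orderOf α / r) with hβ
  have hβo : orderOf β = r := by
    have hpos : 0 < orderOf α := orderOf_pos α
    rw [hβ, orderOf_pow_of_dvd (Nat.div_pos (Nat.le_of_dvd hpos hrα) hr.pos).ne' (Nat.div_dvd_of_dvd hrα)]
    rw [Nat.div_div_self hrα hpos.ne']
  intro x hx hx1 y hy hy1
  obtain ⟨γ, hγ, hγx⟩ := aut_eight hQ β hr57 hβo ⟨x, hx⟩ (fun h => hx1 (by simpa using congrArg Subtype.val h))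
    ⟨y, hy⟩ (fun h => hy1 (by simpa using congrArg Subtype.val h))
  have hγα : γ ∈ zpowers α := by
    have : zpowers β ≤ zpowers α := by
      rw [zpowers_le]
      exact (zpowers α).pow_mem (mem_zpowers α) _
    exact this hγ
  obtain ⟨k, hk⟩ := mem_zpowers_iff.mp hγα
  refine ⟨g ^ k, zpow_mem (mem_zpowers g) k, ?_⟩
  have h6 : γ = Q.normalizerMonoidHom (g' ^ k) := by rw [← hk, hα, map_zpow]
  have h7 : ((γ ⟨x, hx⟩ : Q) : G) = ((g' ^ k : normalizer (Q : Set G)) : G) * x * ((g' ^ k : normalizer (Q : Set G)) : G)⁻¹ := by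
    rw [h6]; rfl
  have h8 : ((g' ^ k : normalizer (Q : Set G)) : G) = g ^ k := by simp [hg']
  rw [h8, hγx] at h7
  exact h7.symm

end H31.HN
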