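import Cfsg.Agent.Lib.H31.HNc
import Cfsg.Agent.Lib.H6.SLCard
import Cfsg.Agent.S0804

/-! # Hall numbers: `m = 60` -/

set_option autoImplicit false

open Cfsg Subgroup

namespace H31.HN

universe u

/-- `PSL₂(q)`, `q > 3` odd -/
def PSLOdd' (X : Type u) [Group X] : Prop :=
  ∃ (F : Type) (_ : Field F) (_ : Fintype F), Odd (Fintype.card F) ∧ 3 < Fintype.card F ∧
    Nonempty (X ≃* Matrix.ProjectiveSpecialLinearGroup (Fin 2) F)

/-- simple groups with a Sylow 2-subgroup of order four -/
def GWFour : Prop := ∀ (X : Type u) [Group X] [Finite X], IsSimpleGroup X →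
    (∃ S : Sylow 2 X, Nat.card (S : Subgroup X) = 4) → PSLOdd' X

/-- dichotomy for groups of order `4 n`, `n` odd -/
theorem four_dichotomy {G : Type*} [Group G] [Finite G] {n : ℕ} (hn : Nat.card G = 2 ^ 2 * n) (hno : Odd n) :
    HasNormalPComplement 2 G ∨ ∃ (D : Subgroup G) (g : G), IsPGroup 2 D ∧ Nat.card D = 2 ^ 2 ∧
      g ∈ normalizer (D : Set G) ∧ 3 ∣ orderOf g := by
  haveI : Fact (Nat.Prime 2) := ⟨Nat.prime_two⟩
  by_cases hex : ∃ (D : Subgroup G) (g : G), IsPGroup 2 D ∧ Nat.card D = 2 ^ 2 ∧
      g ∈ normalizer (D : Set G) ∧ 3 ∣ orderOf g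
  · exact Or.inr hex
  · left
    apply H2.Frobenius.hasNPC_of_local
    intro D hD g hg hgo
    by_contra hc
    have hdvd := two_group_dvd hD hn hno
    have hle := Nat.le_of_dvd (by norm_num) hdvd
    have h2' : 2 < Nat.card D := by
      by_contra hlt
      exact hc (cent_of_card_le_two (by omega) hg)
    have h4 : Nat.card D = 4 := by
      obtain ⟨k, hk⟩ := IsPGroup.iff_card.mp hD
      have hk2 : k = 2 := by
        rcases Nat.lt_or_ge k 2 with h | h
        · interval_cases k <;> omega
        · rcases Nat.lt_or_ge k 3 with h' | h'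
          · omega
          · have : 2 ^ 3 ≤ 2 ^ k := Nat.pow_le_pow_right (by norm_num) h'
            omega
      rw [hk, hk2]; norm_num
    exact hex ⟨D, g, hD, h4, hg, three_dvd_of_four h4 hg hgo hc⟩

theorem solvable_two_group {G : Type*} [Group G] [Finite G] {D : Subgroup G} (hD : IsPGroup 2 D) :
    Group.IsSolvable D := by
  haveI : Fact (Nat.Prime 2) := ⟨Nat.prime_two⟩
  haveI := hD.isNilpotent
  exact IsNilpotent.to_isSolvable

/-- groups of order `2·odd` are solvable -/
theorem solvable_of_two (FT : OddThm.{u}) {G : Type u} [Group G] [Finite G] {n : ℕ}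
    (hn : Nat.card G = 2 * n) (hno : Odd n) : Group.IsSolvable G := by
  haveI : Fact (Nat.Prime 2) := ⟨Nat.prime_two⟩
  apply solvable_of_npc FT
  apply H2.Frobenius.hasNPC_of_local
  intro D hD g hg hgo
  have := Nat.le_of_dvd (by norm_num) (two_group_dvd (a := 1) hD (by rw [pow_one]; exact hn) hno)
  exact cent_of_card_le_two (by simpa using this) hg

/-- groups of order `4·odd` prime to three are solvable -/
theorem solvable_of_four (FT : OddThm.{u}) {G : Type u} [Group G] [Finite G] {n : ℕ}
    (hn : Nat.card G = 2 ^ 2 * n) (hno : Odd n) (h3 : ¬ 3 ∣ Nat.card G) : Group.IsSolvable G := by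
  rcases four_dichotomy hn hno with h | ⟨D, g, -, -, -, h⟩
  · exact solvable_of_npc FT h
  · exact absurd (h.trans (orderOf_dvd_natCard g)) h3

/-- groups of order twelve are solvable -/
theorem solvable_twelve (FT : OddThm.{u}) {G : Type u} [Group G] [Finite G]
    (hn : Nat.card G = 12) : Group.IsSolvable G := by
  rcases four_dichotomy (G := G) (n := 3) (by rw [hn]; norm_num) (by decide) with h | ⟨D, g, hD, hD4, hg, h3⟩
  · exact solvable_of_npc FT h
  · have hle : zpowers g ≤ normalizer (D : Set G) := by
      rw [zpowers_le]; exact hg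
    have hs := H26.SupCard.isSolvable_sup hle (solvable_two_group hD) (inferInstance : Group.IsSolvable (zpowers g))
    have h12 : 12 ∣ Nat.card (D ⊔ zpowers g : Subgroup G) := by
      have : (12 : ℕ) = 2 ^ 2 * 3 := by norm_num
      rw [this]
      refine Nat.Coprime.mul_dvd_of_dvd_of_dvd (Nat.Coprime.pow_left 2 (by norm_num)) ?_ ?_
      · rw [← hD4]; exact Subgroup.card_dvd_of_le le_sup_left
      · refine h3.trans ?_
        rw [← Nat.card_zpowers]
        exact Subgroup.card_dvd_of_le le_sup_right
    have htop : D ⊔ zpowers g = ⊤ := by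
      apply Subgroup.eq_top_of_le_card
      rw [hn]
      exact Nat.le_of_dvd Nat.card_pos h12
    rw [htop] at hs
    exact Group.isSolvable_of_surjective (f := (⊤ : Subgroup G).subtype)
      (fun x => ⟨⟨x, trivial⟩, rfl⟩)

theorem solvable_of_normal {G : Type*} [Group G] (N : Subgroup G) [N.Normal] (h1 : Group.IsSolvable N)
    (h2 : Group.IsSolvable (G ⧸ N)) : Group.IsSolvable G :=
  (Group.isSolvable_iff_subgroup_quotient (H := N)).mpr ⟨h1, h2⟩

theorem solvable_top {G : Type*} [Group G] (h : Group.IsSolvable G) : Group.IsSolvable (⊤ : Subgroup G) :=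
  Group.isSolvable_of_isSolvable_injective (f := (⊤ : Subgroup G).subtype) (Subgroup.subtype_injective _)

/-- `m = 60` -/
theorem case_sixty (FT : OddThm.{u}) (GW : GWFour.{u}) : ∀ (n : ℕ) (G : Type u) [Group G] [Finite G],
    Nat.card G ≤ n → 60 ∣ Nat.card G → (60 : ℕ).Coprime (Nat.card G / 60) →
    ∃ H : Subgroup G, Nat.card H = 60 := by
  intro n
  induction n with
  | zero =>
    intro G _ _ h
    exact absurd h (by have := Nat.card_pos (α := G); omega)
  | succ n ih =>
  intro G _ _ hGn h1 h2
  haveI : Fact (Nat.Prime 2) := ⟨Nat.prime_two⟩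
  by_contra hno
  obtain ⟨q, hq⟩ := h1
  have h1' : 60 ∣ Nat.card G := ⟨q, hq⟩
  have hqc : (60 : ℕ).Coprime q := by
    rw [hq, Nat.mul_div_cancel_left _ (by norm_num)] at h2
    exact h2
  have hq2 : Odd q := by
    rw [← Nat.coprime_two_left]
    exact hqc.coprime_dvd_left (by norm_num)
  -- no proper subgroup has order divisible by 60
  have hprop : ∀ Y : Subgroup G, Y ≠ ⊤ → ¬ 60 ∣ Nat.card Y := by
    intro Y hY h60
    apply hno
    have hlt : Nat.card Y < Nat.card G := by
      refine lt_of_le_of_ne (Subgroup.card_le_card_group Y) ?_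
      intro h
      exact hY (Subgroup.eq_top_of_card_eq Y h)
    obtain ⟨r, hr⟩ := h60
    have hrq : r ∣ q := by
      have := Subgroup.card_subgroup_dvd_card Y
      rw [hr, hq] at this
      exact Nat.dvd_of_mul_dvd_mul_left (by norm_num) this
    obtain ⟨H, hH⟩ := ih Y (by omega) ⟨r, hr⟩ (by
      rw [hr, Nat.mul_div_cancel_left _ (by norm_num)]
      exact hqc.coprime_dvd_right hrq)
    exact ⟨H.map Y.subtype, by rw [H39.PNilp.card_map_injective _ Y.subtype_injective]; exact hH⟩
  have hnots : ¬ Group.IsSolvable G := by
    intro hs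
    exact hno (of_solvable h1' h2 ⊤ (solvable_top hs) (by simpa using h1'))
  have hsub : ∀ Y : Subgroup G, Group.IsSolvable Y → ¬ 60 ∣ Nat.card Y := fun Y hY h60 =>
    hno (of_solvable h1' h2 Y hY h60)
  have hG4 : Nat.card G = 2 ^ 2 * (15 * q) := by rw [hq]; ring
  have hG4o : Odd (15 * q) := Odd.mul (by decide) hq2
  by_cases hsimp : IsSimpleGroup G
  · -- simple case
    obtain ⟨S⟩ : Nonempty (Sylow 2 G) := inferInstance
    have hS : Nat.card (S : Subgroup G) = 4 := by
      have := S.card_eq_multiplicity
      have hf : (Nat.card G).factorization 2 = 2 := by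
        rw [hG4, Nat.factorization_mul (by norm_num) hG4o.pos.ne', Finsupp.add_apply,
          Nat.prime_two.factorization_pow, Finsupp.single_eq_same,
          Nat.factorization_eq_zero_of_not_dvd (fun h => by
            rw [← even_iff_two_dvd] at h
            exact (Nat.not_even_iff_odd.mpr hG4o) h)]
      rw [hf] at this
      exact this
    obtain ⟨F, _, _, hFo, hF3, ⟨e⟩⟩ := GW G hsimp ⟨S, hS⟩
    have hcard : 5 ∣ Fintype.card F * (Fintype.card F ^ 2 - 1) := by
      have h := H6.SLCard.card_psl (F := F) (n := 2) (by norm_num)
      rw [← Nat.card_congr e.toEquiv, Fin.prod_univ_two] at h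
      simp only [Fin.val_zero, Fin.val_one, pow_zero, pow_one] at h
      set f := Fintype.card F with hf
      obtain ⟨m, hm⟩ : ∃ m, f = m + 1 := ⟨f - 1, by omega⟩
      have hm0 : 0 < m := by omega
      have e1 : f ^ 2 - f = f * m := by
        rw [hm]
        have : (m + 1) ^ 2 = (m + 1) * m + (m + 1) := by ring
        rw [this]; simp
      have e2 : f - 1 = m := by omega
      rw [e1, e2] at h
      have h3 : m * (Nat.gcd 2 m * Nat.card G) = m * (f * (f ^ 2 - 1)) := by
        calc m * (Nat.gcd 2 m * Nat.card G) = Nat.gcd 2 m * (m * Nat.card G) := by ring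
          _ = (f ^ 2 - 1) * (f * m) := h
          _ = _ := by ring
      have h4 := Nat.eq_of_mul_eq_mul_left hm0 h3
      rw [← h4]
      exact Dvd.dvd.mul_left ((by norm_num : 5 ∣ 60).trans h1') _
    obtain ⟨H, ⟨e'⟩⟩ := (Cfsg.Agent.S0804.result (F := F) rfl).mpr hcard
    apply hno
    refine ⟨H.map e.symm.toMonoidHom, ?_⟩
    rw [H39.PNilp.card_map_injective _ e.symm.injective, Nat.card_congr e'.toEquiv,
      nat_card_alternatingGroup]
    simp [Nat.factorial]
  · -- a proper nontrivial normal subgroup
    have hnt : Nontrivial G := by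
      rw [← Finite.one_lt_card_iff_nontrivial]
      have := Nat.le_of_dvd Nat.card_pos h1'
      omega
    have hN : ∃ N : Subgroup G, N.Normal ∧ N ≠ ⊥ ∧ N ≠ ⊤ := by
      by_contra hcon
      push Not at hcon
      apply hsimp
      exact { toNontrivial := hnt
              eq_bot_or_eq_top_of_normal := fun N hN => by
                by_cases h : N = ⊥
                · exact Or.inl h
                · exact Or.inr (hcon N hN h) }
    obtain ⟨N, hNn, hNb, hNt⟩ := hN
    haveI := hNn
    have hNG : Nat.card G = Nat.card (G ⧸ N) * Nat.card N := Subgroup.card_eq_card_quotient_mul_card_subgroup N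
    have hN1 : 1 < Nat.card N := by
      by_contra h
      apply hNb
      rw [← Subgroup.card_eq_one]
      have := Nat.card_pos (α := N)
      omega
    have hQlt : Nat.card (G ⧸ N) < Nat.card G := by
      rw [hNG]
      have := Nat.card_pos (α := G ⧸ N)
      nlinarith
    rcases Nat.even_or_odd (Nat.card N) with heven | hodd
    · -- even order
      by_cases h4 : 4 ∣ Nat.card N
      · -- N contains the Sylow 2-subgroups
        obtain ⟨r, hr⟩ := h4
        have hrq : Nat.card (G ⧸ N) * r = 15 * q := by
          have : 4 * (Nat.card (G ⧸ N) * r) = 4 * (15 * q) := by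
            rw [← mul_assoc, mul_comm 4 (Nat.card (G ⧸ N)), mul_assoc, ← hr, ← hNG, hG4]; ring
          omega
        have hro : Odd r := (Nat.odd_mul.mp (by rw [hrq]; exact hG4o)).2
        have hQo : Odd (Nat.card (G ⧸ N)) := (Nat.odd_mul.mp (by rw [hrq]; exact hG4o)).1
        have hQs : Group.IsSolvable (G ⧸ N) := FT _ hQo
        have hNs : ¬ Group.IsSolvable N := fun h => hnots (solvable_of_normal N h hQs)
        have h3N : 3 ∣ Nat.card N := by
          by_contra h3
          exact hNs (solvable_of_four FT (n := r) (by rw [hr]; norm_num) hro h3)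
        have h5N : ¬ 5 ∣ Nat.card N := by
          intro h5
          apply hprop N hNt
          have : (60 : ℕ) = 4 * (3 * 5) := by norm_num
          rw [this]
          refine Nat.Coprime.mul_dvd_of_dvd_of_dvd (by norm_num) ⟨r, hr⟩ ?_
          exact Nat.Coprime.mul_dvd_of_dvd_of_dvd (by norm_num) h3N h5
        rcases four_dichotomy hG4 hG4o with h | ⟨D, g, hD, hD4, hg, h3⟩
        · exact hnots (solvable_of_npc FT h)
        · -- the normalizer of D
          have hDN : D ≤ N := by
            -- the image of D in G/N is trivial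
            intro x hx
            have hox : orderOf x ∣ 4 := by
              have : orderOf (⟨x, hx⟩ : D) ∣ Nat.card D := orderOf_dvd_natCard _
              rw [← Subgroup.orderOf_coe] at this
              rw [hD4] at this
              simpa using this
            have h5 : orderOf (QuotientGroup.mk' N x) ∣ Nat.gcd 4 (Nat.card (G ⧸ N)) :=
              Nat.dvd_gcd ((orderOf_map_dvd _ x).trans hox) (orderOf_dvd_natCard _)
            have h6 : Nat.gcd 4 (Nat.card (G ⧸ N)) = 1 := by
              have : (2 ^ 2 : ℕ).Coprime (Nat.card (G ⧸ N)) :=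
                Nat.Coprime.pow_left 2 ((Nat.coprime_two_left).mpr hQo)
              simpa using this
            rw [h6, Nat.dvd_one, orderOf_eq_one_iff] at h5
            exact (QuotientGroup.eq_one_iff x).mp h5
          -- Frattini
          have hsyl : Nat.card (D.subgroupOf N) = 2 ^ (Nat.card N).factorization 2 := by
            rw [Nat.card_congr (Subgroup.subgroupOfEquivOfLe hDN).toEquiv, hD4]
            congr 1
            rw [hr, show (4 : ℕ) = 2 ^ 2 by norm_num, Nat.factorization_mul (by norm_num) hro.pos.ne', Finsupp.add_apply,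
              Nat.prime_two.factorization_pow, Finsupp.single_eq_same,
              Nat.factorization_eq_zero_of_not_dvd (fun h => by
                rw [← even_iff_two_dvd] at h
                exact (Nat.not_even_iff_odd.mpr hro) h)]
          let P : Sylow 2 N := Sylow.ofCard (D.subgroupOf N) hsyl
          have hfr := Sylow.normalizer_sup_eq_top P
          have hPD : (P : Subgroup N).map N.subtype = D := by
            show (D.subgroupOf N).map N.subtype = D
            rw [Subgroup.map_subgroupOf_eq_of_le hDN]
          rw [hPD] at hfr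
          -- |G : N| divides |N(D)|
          have hidx : Nat.card (G ⧸ N) ∣ Nat.card (normalizer (D : Set G)) := by
            have h7 := H1.Hall.card_sup_mul_card_inf (normalizer (D : Set G)) N
            rw [hfr, Subgroup.card_top, hNG] at h7
            have h8 : Nat.card N * (Nat.card (G ⧸ N) * Nat.card (normalizer (D : Set G) ⊓ N : Subgroup G)) =
                Nat.card N * Nat.card (normalizer (D : Set G)) := by
              calc _ = Nat.card (G ⧸ N) * Nat.card N * Nat.card (normalizer (D : Set G) ⊓ N : Subgroup G) := by ring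
                _ = _ := by rw [h7]; ring
            have h9 := Nat.eq_of_mul_eq_mul_left Nat.card_pos h8
            exact ⟨_, h9.symm⟩
          have h5Q : 5 ∣ Nat.card (G ⧸ N) := by
            have : 5 ∣ Nat.card (G ⧸ N) * Nat.card N := by
              rw [← hNG]; exact (by norm_num : 5 ∣ 60).trans h1'
            rcases (Nat.Prime.dvd_mul (by norm_num)).mp this with h | h
            · exact h
            · exact absurd h h5N
          have h5' : 5 ∣ Nat.card (normalizer (D : Set G)) := h5Q.trans hidx
          have h4' : 4 ∣ Nat.card (normalizer (D : Set G)) := by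
            have : Nat.card D ∣ Nat.card (normalizer (D : Set G)) := Subgroup.card_dvd_of_le le_normalizer
            rw [hD4] at this
            simpa using this
          have h3' : 3 ∣ Nat.card (normalizer (D : Set G)) := by
            refine h3.trans ?_
            rw [← Nat.card_zpowers]
            exact Subgroup.card_dvd_of_le (by rw [zpowers_le]; exact hg)
          have hsolv : Group.IsSolvable (normalizer (D : Set G)) := by
            haveI hDn : (D.subgroupOf (normalizer (D : Set G))).Normal := Subgroup.normal_in_normalizer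
            have hDc : Nat.card (D.subgroupOf (normalizer (D : Set G))) = 4 := by
              rw [Nat.card_congr (Subgroup.subgroupOfEquivOfLe le_normalizer).toEquiv, hD4]; norm_num
            refine solvable_of_normal (D.subgroupOf (normalizer (D : Set G))) ?_ ?_
            · exact solvable_two_group (IsPGroup.of_card (n := 2) (by rw [hDc]; norm_num))
            · apply FT
              have h7 := Subgroup.card_eq_card_quotient_mul_card_subgroup (D.subgroupOf (normalizer (D : Set G)))
              rw [hDc] at h7
              have h8 : Nat.card (normalizer (D : Set G)) ∣ 4 * (15 * q) := by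
                have := Subgroup.card_subgroup_dvd_card (normalizer (D : Set G))
                rw [hG4] at this
                simpa using this
              rw [h7, mul_comm] at h8
              exact Odd.of_dvd_nat hG4o (Nat.dvd_of_mul_dvd_mul_left (by norm_num) h8)
          apply hsub _ hsolv
          have : (60 : ℕ) = 4 * (3 * 5) := by norm_num
          rw [this]
          refine Nat.Coprime.mul_dvd_of_dvd_of_dvd (by norm_num) h4' ?_
          exact Nat.Coprime.mul_dvd_of_dvd_of_dvd (by norm_num) h3' h5'
      · -- 2-part equal to 2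
        obtain ⟨r, hr⟩ := even_iff_two_dvd.mp heven
        have hro : Odd r := by
          rw [← Nat.not_even_iff_odd, even_iff_two_dvd]
          rintro ⟨s, hs⟩
          exact h4 ⟨s, by rw [hr, hs]; ring⟩
        have hNs : Group.IsSolvable N := solvable_of_two FT hr hro
        have hQ2 : Nat.card (G ⧸ N) * r = 2 * (15 * q) := by
          have : 2 * (Nat.card (G ⧸ N) * r) = 2 * (2 * (15 * q)) := by
            rw [← mul_assoc, mul_comm 2 (Nat.card (G ⧸ N)), mul_assoc, ← hr, ← hNG, hG4]; ring
          omega
        have h2Q : 2 ∣ Nat.card (G ⧸ N) := by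
          have : 2 ∣ Nat.card (G ⧸ N) * r := ⟨_, hQ2⟩
          rcases (Nat.prime_two.dvd_mul).mp this with h | h
          · exact h
          · exact absurd (even_iff_two_dvd.mpr h) (Nat.not_even_iff_odd.mpr hro)
        obtain ⟨s, hs⟩ := h2Q
        have hso : Odd s := by
          have : 2 * (s * r) = 2 * (15 * q) := by rw [← mul_assoc, ← hs, hQ2]
          have h' : s * r = 15 * q := by omega
          exact (Nat.odd_mul.mp (by rw [h']; exact hG4o)).1
        exact hnots (solvable_of_normal N hNs (solvable_of_two FT hs hso))
    · -- odd order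
      have hNs : Group.IsSolvable N := FT _ hodd
      have hQs : ¬ Group.IsSolvable (G ⧸ N) := fun h => hnots (solvable_of_normal N hNs h)
      have h4Q : 4 ∣ Nat.card (G ⧸ N) := by
        have : 4 ∣ Nat.card (G ⧸ N) * Nat.card N := by
          rw [← hNG]; exact (by norm_num : 4 ∣ 60).trans h1'
        refine Nat.Coprime.dvd_of_dvd_mul_right ?_ this
        have : (2 ^ 2 : ℕ).Coprime (Nat.card N) := Nat.Coprime.pow_left 2 ((Nat.coprime_two_left).mpr hodd)
        simpa using this
      obtain ⟨r, hr⟩ := h4Q
      have hrN : r * Nat.card N = 15 * q := by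
        have : 4 * (r * Nat.card N) = 4 * (15 * q) := by
          rw [← mul_assoc, ← hr, ← hNG, hG4]; norm_num
        omega
      have hro : Odd r := (Nat.odd_mul.mp (by rw [hrN]; exact hG4o)).1
      have h3Q : 3 ∣ Nat.card (G ⧸ N) := by
        by_contra h3
        exact hQs (solvable_of_four FT (n := r) (by rw [hr]; norm_num) hro h3)
      have h3r : 3 ∣ r := by
        rw [hr] at h3Q
        exact Nat.Coprime.dvd_of_dvd_mul_left (by norm_num) h3Q
      obtain ⟨s, hs⟩ := h3r
      have hsN : s * Nat.card N = 5 * q := by
        have : 3 * (s * Nat.card N) = 3 * (5 * q) := by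
          rw [← mul_assoc, ← hs, hrN]; ring
        omega
      by_cases h5 : 5 ∣ Nat.card N
      · -- lift a subgroup of order twelve
        have h12 : Nat.card (G ⧸ N) = 12 * s := by rw [hr, hs]; ring
        obtain ⟨t, ht⟩ := h5
        have hst : s * t = q := by
          have : 5 * (s * t) = 5 * q := by
            rw [← hsN, ht]; ring
          omega
        have hsc : (12 : ℕ).Coprime s :=
          Nat.Coprime.coprime_dvd_left (by norm_num) (hqc.coprime_dvd_right ⟨t, hst.symm⟩)
        obtain ⟨K, hK⟩ := case_twelve FT (G ⧸ N) ⟨s, h12⟩ (by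
          rw [h12, Nat.mul_div_cancel_left _ (by norm_num)]; exact hsc)
        have hcK := H1.Hall.card_map_mk_mul_card_inf (K.comap (QuotientGroup.mk' N)) N
        have hle : N ≤ K.comap (QuotientGroup.mk' N) := QuotientGroup.le_comap_mk' N K
        rw [Subgroup.map_comap_eq_self_of_surjective (QuotientGroup.mk'_surjective N), hK,
          inf_eq_right.mpr hle] at hcK
        apply hsub (K.comap (QuotientGroup.mk' N))
        · -- solvable
          set Y := K.comap (QuotientGroup.mk' N) with hY
          let f : Y →* K := ((QuotientGroup.mk' N).comp Y.subtype).codRestrict K (fun y => y.2)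
          have hk : Group.IsSolvable K := solvable_twelve FT hK
          have hker : f.ker ≤ (Subgroup.inclusion hle).range := by
            intro y hy
            have h7 : (QuotientGroup.mk' N) (y : G) = 1 := congrArg Subtype.val (MonoidHom.mem_ker.mp hy)
            have h8 : (y : G) ∈ N := (QuotientGroup.eq_one_iff (y : G)).mp h7
            exact ⟨⟨y, h8⟩, Subtype.ext rfl⟩
          exact Group.isSolvable_of_ker_le_range (Subgroup.inclusion hle) f hker
        · rw [← hcK, ht]
          exact ⟨t, by ring⟩
      · -- Schur–Zassenhaus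
        have h5s : 5 ∣ s := by
          have : 5 ∣ s * Nat.card N := ⟨q, hsN⟩
          rcases (Nat.Prime.dvd_mul (by norm_num)).mp this with h | h
          · exact h
          · exact absurd h h5
        obtain ⟨t, ht⟩ := h5s
        have htN : t * Nat.card N = q := by
          have : 5 * (t * Nat.card N) = 5 * q := by
            rw [← mul_assoc, ← ht, hsN]
          omega
        have h60 : Nat.card (G ⧸ N) = 60 * t := by rw [hr, hs, ht]; ring
        obtain ⟨K, hK⟩ := ih (G ⧸ N) (by omega) ⟨t, h60⟩ (by
          rw [h60, Nat.mul_div_cancel_left _ (by norm_num)]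
          exact hqc.coprime_dvd_right ⟨_, htN.symm⟩)
        have hcK := H1.Hall.card_map_mk_mul_card_inf (K.comap (QuotientGroup.mk' N)) N
        have hle : N ≤ K.comap (QuotientGroup.mk' N) := QuotientGroup.le_comap_mk' N K
        rw [Subgroup.map_comap_eq_self_of_surjective (QuotientGroup.mk'_surjective N), hK,
          inf_eq_right.mpr hle] at hcK
        set Y := K.comap (QuotientGroup.mk' N) with hY
        haveI : (N.subgroupOf Y).Normal := inferInstance
        have hNY : Nat.card (N.subgroupOf Y) = Nat.card N :=
          Nat.card_congr (Subgroup.subgroupOfEquivOfLe hle).toEquiv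
        have hidx : (N.subgroupOf Y).index = 60 := by
          have h7 := Subgroup.card_mul_index (N.subgroupOf Y)
          rw [hNY, ← hcK, mul_comm] at h7
          exact Nat.eq_of_mul_eq_mul_right Nat.card_pos h7
        have hcop : (Nat.card (N.subgroupOf Y)).Coprime (N.subgroupOf Y).index := by
          rw [hNY, hidx, Nat.coprime_comm]
          exact hqc.coprime_dvd_right ⟨t, by rw [← htN]; ring⟩
        obtain ⟨C, hC⟩ := Subgroup.exists_right_complement'_of_coprime hcop
        have hCc : Nat.card C = 60 := by
          rw [← hidx]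
          exact hC.symm.index_eq_card.symm
        exact hno ⟨C.map Y.subtype, by rw [H39.PNilp.card_map_injective _ Y.subtype_injective]; exact hCc⟩

end H31.HN
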