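import Cfsg.Agent.Lib.H31.HNd
import Cfsg.Agent.Lib.H59.GW4b
import Cfsg.Agent.Lib.H2.Conj

/-! # Hall numbers: `m = 24`, the Sylow 2-subgroups -/

set_option autoImplicit false

open Cfsg Subgroup

namespace H31.HN

universe u

theorem odd_quot {a b k n : ℕ} (h : a * b ∣ 2 ^ k * n) (hb : b = 2 ^ k) (hn : Odd n) : Odd a := by
  subst hb
  have h1 : a ∣ n := by
    rw [mul_comm] at h
    exact Nat.dvd_of_mul_dvd_mul_left (by positivity) h
  exact Odd.of_dvd_nat hn h1

/-- the order of a `2`-subgroup -/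
theorem card_cases {G : Type*} [Group G] [Finite G] {n : ℕ} (hG : Nat.card G = 2 ^ 3 * n) (hn : Odd n)
    {D : Subgroup G} (hD : IsPGroup 2 D) (h2 : 2 < Nat.card D) : Nat.card D = 4 ∨ Nat.card D = 8 := by
  haveI : Fact (Nat.Prime 2) := ⟨Nat.prime_two⟩
  have hdvd := two_group_dvd hD hG hn
  have hle := Nat.le_of_dvd (by norm_num) hdvd
  obtain ⟨k, hk⟩ := IsPGroup.iff_card.mp hD
  rcases Nat.lt_or_ge k 4 with h | h
  · interval_cases k <;> omega
  · have : 2 ^ 4 ≤ 2 ^ k := Nat.pow_le_pow_right (by norm_num) h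
    omega

/-- normalizers of subgroups of order 4, 8 -/
theorem no_three_normalizer (FT : OddThm.{u}) {G : Type u} [Group G] [Finite G] {n : ℕ}
    (hG : Nat.card G = 2 ^ 3 * n) (hn : Odd n)
    (hno : ∀ Y : Subgroup G, Group.IsSolvable Y → ¬ 24 ∣ Nat.card Y) {D : Subgroup G} (hD : IsPGroup 2 D)
    (hc : Nat.card D = 4 ∨ Nat.card D = 8) : ¬ 3 ∣ Nat.card (normalizer (D : Set G)) := by
  haveI : Fact (Nat.Prime 2) := ⟨Nat.prime_two⟩
  intro h3
  haveI hDn : (D.subgroupOf (normalizer (D : Set G))).Normal := Subgroup.normal_in_normalizer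
  have hDc : Nat.card (D.subgroupOf (normalizer (D : Set G))) = Nat.card D :=
    Nat.card_congr (Subgroup.subgroupOfEquivOfLe le_normalizer).toEquiv
  have hDp : Group.IsSolvable (D.subgroupOf (normalizer (D : Set G))) :=
    solvable_two_group (hD.of_equiv (Subgroup.subgroupOfEquivOfLe le_normalizer).symm)
  have hcard := Subgroup.card_eq_card_quotient_mul_card_subgroup (D.subgroupOf (normalizer (D : Set G)))
  rw [hDc] at hcard
  have hdvd : Nat.card (normalizer (D : Set G)) ∣ 2 ^ 3 * n := by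
    rw [← hG]; exact Subgroup.card_subgroup_dvd_card _
  have h8 : 8 ∣ Nat.card (normalizer (D : Set G)) := by
    rcases hc with hc | hc
    · obtain ⟨S, hS⟩ := hD.exists_le_sylow
      have hS8 : Nat.card (S : Subgroup G) = 8 := by
        rw [S.card_eq_multiplicity, hG, Nat.factorization_mul (by norm_num) hn.pos.ne', Finsupp.add_apply,
          Nat.prime_two.factorization_pow, Finsupp.single_eq_same,
          Nat.factorization_eq_zero_of_not_dvd (fun h => by
            rw [← even_iff_two_dvd] at h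
            exact (Nat.not_even_iff_odd.mpr hn) h)]
        norm_num
      have hidx : (D.subgroupOf (S : Subgroup G)).index = 2 := by
        have := Subgroup.card_mul_index (D.subgroupOf (S : Subgroup G))
        rw [Nat.card_congr (Subgroup.subgroupOfEquivOfLe hS).toEquiv, hc, hS8] at this
        omega
      have hn2 : (D.subgroupOf (S : Subgroup G)).Normal := Subgroup.normal_of_index_eq_two hidx
      have hle : (S : Subgroup G) ≤ normalizer (D : Set G) :=
        (Subgroup.normal_subgroupOf_iff_le_normalizer hS).1 hn2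
      rw [← hS8]
      exact Subgroup.card_dvd_of_le hle
    · rw [← hc]
      exact Subgroup.card_dvd_of_le le_normalizer
  have hsolv : Group.IsSolvable (normalizer (D : Set G)) := by
    refine solvable_of_normal (D.subgroupOf (normalizer (D : Set G))) hDp ?_
    rcases hc with hc | hc
    · rw [hc] at hcard
      obtain ⟨r, hr⟩ := h8
      have h1 : Nat.card (normalizer (D : Set G) ⧸ D.subgroupOf (normalizer (D : Set G))) = 2 * r := by
        omega
      apply solvable_of_two FT h1
      rw [hr] at hdvd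
      exact Odd.of_dvd_nat hn (Nat.dvd_of_mul_dvd_mul_left (by norm_num : 0 < 8) (by simpa using hdvd))
    · apply FT
      rw [hcard] at hdvd
      exact odd_quot hdvd (by rw [hc]; norm_num) hn
  apply hno _ hsolv
  have : (24 : ℕ) = 8 * 3 := by norm_num
  rw [this]
  exact Nat.Coprime.mul_dvd_of_dvd_of_dvd (by norm_num) h8 h3

/-- an element acting nontrivially -/
theorem eight_of_act (FT : OddThm.{u}) {G : Type u} [Group G] [Finite G] {n : ℕ}
    (hG : Nat.card G = 2 ^ 3 * n) (hn : Odd n)
    (hno : ∀ Y : Subgroup G, Group.IsSolvable Y → ¬ 24 ∣ Nat.card Y) {D : Subgroup G} (hD : IsPGroup 2 D)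
    {g : G} (hg : g ∈ normalizer (D : Set G)) (hgo : (orderOf g).Coprime 2)
    (hc : g ∉ centralizer (D : Set G)) :
    Nat.card D = 8 ∧ ∀ x ∈ D, x ≠ 1 → ∀ y ∈ D, y ≠ 1 → ∃ h ∈ zpowers g, h * x * h⁻¹ = y := by
  have h2 : 2 < Nat.card D := by
    by_contra hlt
    exact hc (cent_of_card_le_two (by omega) hg)
  have hcc := card_cases hG hn hD h2
  have h3 : ¬ 3 ∣ orderOf g := by
    intro h
    apply no_three_normalizer FT hG hn hno hD hcc
    refine h.trans ?_
    rw [← Nat.card_zpowers]
    exact Subgroup.card_dvd_of_le (by rw [zpowers_le]; exact hg)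
  rcases hcc with h | h
  · exact absurd (three_dvd_of_four h hg hgo hc) h3
  · exact ⟨h, trans_of_eight h hg hgo h3 hc⟩

theorem normalizer_map_mem {G : Type*} [Group G] {H : Subgroup G} {D : Subgroup H} {g : H}
    (hg : g ∈ normalizer (D : Set H)) : (g : G) ∈ normalizer ((D.map H.subtype : Subgroup G) : Set G) :=
  le_normalizer_map H.subtype (mem_map_of_mem H.subtype hg)

theorem centralizer_map_mem {G : Type*} [Group G] {H : Subgroup G} {D : Subgroup H} {g : H}
    (hg : (g : G) ∈ centralizer ((D.map H.subtype : Subgroup G) : Set G)) : g ∈ centralizer (D : Set H) := by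
  rw [mem_centralizer_iff] at hg ⊢
  intro x hx
  exact Subtype.ext (hg x ⟨x, hx, rfl⟩)

/-- centralizers of involutions have normal 2-complements -/
theorem cent_npc (FT : OddThm.{u}) {G : Type u} [Group G] [Finite G] {n : ℕ}
    (hG : Nat.card G = 2 ^ 3 * n) (hn : Odd n)
    (hno : ∀ Y : Subgroup G, Group.IsSolvable Y → ¬ 24 ∣ Nat.card Y) {t : G} (ht : orderOf t = 2) :
    HasNormalPComplement 2 (centralizer ({t} : Set G)) := by
  haveI : Fact (Nat.Prime 2) := ⟨Nat.prime_two⟩
  apply H2.Frobenius.hasNPC_of_local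
  intro D hD g hg hgo
  by_contra hc
  set D' : Subgroup G := D.map (centralizer ({t} : Set G)).subtype with hD'
  have hD'p : IsPGroup 2 D' := hD.map _
  obtain ⟨h8, htr⟩ := eight_of_act FT hG hn hno hD'p (normalizer_map_mem hg)
    (by rw [Subgroup.orderOf_coe]; exact hgo) (fun h => hc (centralizer_map_mem h))
  -- t ∈ D'
  have hDC : D' ≤ centralizer ({t} : Set G) := Subgroup.map_subtype_le _
  have htD : t ∈ D' := by
    have hzp : IsPGroup 2 (zpowers t) := IsPGroup.of_card (n := 1) (by rw [Nat.card_zpowers, ht, pow_one])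
    have hle : D' ≤ normalizer ((zpowers t : Subgroup G) : Set G) := by
      intro x hx
      have hxt : x * t = t * x := (mem_centralizer_singleton_iff.mp (hDC hx))
      apply centralizer_le_normalizer
      rw [mem_centralizer_iff]
      intro y hy
      obtain ⟨k, rfl⟩ := mem_zpowers_iff.mp hy
      exact ((Commute.zpow_right (show Commute x t from hxt) k).eq).symm
    have hsup := IsPGroup.to_sup_of_normal_right' hD'p hzp hle
    have hc1 := Nat.le_of_dvd (by norm_num) (two_group_dvd hsup hG hn)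
    have heq : D' = D' ⊔ zpowers t := by
      apply Subgroup.eq_of_le_of_card_ge le_sup_left
      rw [h8]; simpa using hc1
    rw [heq]
    exact (le_sup_right : zpowers t ≤ _) (mem_zpowers t)
  have ht1 : t ≠ 1 := by
    intro h; rw [h, orderOf_one] at ht; omega
  obtain ⟨y, hyD, hy1, hyt⟩ : ∃ y ∈ D', y ≠ 1 ∧ y ≠ t := by
    by_contra hcon
    push Not at hcon
    have hle : (D' : Set G) ⊆ {1, t} := by
      intro y hy
      by_cases h1 : y = 1
      · exact Or.inl h1
      · exact Or.inr (hcon y hy h1)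
    have h3 := Set.ncard_le_ncard hle (Set.toFinite _)
    have h4 : (D' : Set G).ncard = 8 := by rw [← Nat.card_coe_set_eq]; exact h8
    have h5 : ({1, t} : Set G).ncard ≤ 2 := Set.ncard_insert_le _ _ |>.trans (by simp)
    omega
  obtain ⟨h, hh, hht⟩ := htr t htD ht1 y hyD hy1
  have hgt : (g : G) * t = t * g := mem_centralizer_singleton_iff.mp g.2
  obtain ⟨k, rfl⟩ := mem_zpowers_iff.mp hh
  have hcom : (g : G) ^ k * t = t * (g : G) ^ k := (Commute.zpow_left (show Commute (g : G) t from hgt) k).eq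
  apply hyt
  rw [← hht, hcom, mul_inv_cancel_right]

/-- the Sylow 2-subgroup -/
theorem exists_sylow (FT : OddThm.{u}) {G : Type u} [Group G] [Finite G] {n : ℕ}
    (hG : Nat.card G = 2 ^ 3 * n) (hn : Odd n)
    (hno : ∀ Y : Subgroup G, Group.IsSolvable Y → ¬ 24 ∣ Nat.card Y) (h24 : 24 ∣ Nat.card G) :
    ∃ S : Subgroup G, Nat.card S = 8 ∧ IsPGroup 2 S ∧ (∀ x ∈ S, x * x = 1) ∧
      (∀ x ∈ S, ∀ y ∈ S, x * y = y * x) ∧
      ∀ x ∈ S, x ≠ 1 → ∀ y ∈ S, y ≠ 1 → ∃ h ∈ normalizer (S : Set G), h * x * h⁻¹ = y := by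
  haveI : Fact (Nat.Prime 2) := ⟨Nat.prime_two⟩
  have hex : ∃ (D : Subgroup G) (g : G), IsPGroup 2 D ∧ g ∈ normalizer (D : Set G) ∧
      (orderOf g).Coprime 2 ∧ g ∉ centralizer (D : Set G) := by
    by_contra hcon
    push Not at hcon
    have hnpc : HasNormalPComplement 2 G := by
      apply H2.Frobenius.hasNPC_of_local
      intro D hD g hg hgo
      exact hcon D g hD hg hgo
    exact hno ⊤ (solvable_top (solvable_of_npc FT hnpc)) (by simpa using h24)
  obtain ⟨S, g, hS, hg, hgo, hc⟩ := hex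
  obtain ⟨h8, htr⟩ := eight_of_act FT hG hn hno hS hg hgo hc
  have htr' : ∀ x ∈ S, x ≠ 1 → ∀ y ∈ S, y ≠ 1 → ∃ h ∈ normalizer (S : Set G), h * x * h⁻¹ = y := by
    intro x hx hx1 y hy hy1
    obtain ⟨h, hh, e⟩ := htr x hx hx1 y hy hy1
    exact ⟨h, (zpowers_le.mpr hg) hh, e⟩
  obtain ⟨t, ht⟩ := exists_prime_orderOf_dvd_card' (G := S) 2 (by rw [h8]; norm_num)
  have htt : (t : G) * t = 1 := by
    have := pow_orderOf_eq_one t
    rw [ht, pow_two] at this
    exact congrArg Subtype.val this
  have ht1 : (t : G) ≠ 1 := by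
    intro h
    have : t = 1 := Subtype.ext h
    rw [this, orderOf_one] at ht
    omega
  have hsq : ∀ x ∈ S, x * x = 1 := by
    intro x hx
    by_cases hx1 : x = 1
    · rw [hx1, mul_one]
    · obtain ⟨h, -, e⟩ := htr' t t.2 ht1 x hx hx1
      rw [← e]
      calc h * (t : G) * h⁻¹ * (h * t * h⁻¹) = h * (t * t) * h⁻¹ := by group
        _ = 1 := by rw [htt]; group
  refine ⟨S, h8, hS, hsq, ?_, htr'⟩
  intro x hx y hy
  have h1 := hsq x hx
  have h2 := hsq y hy
  have h3 := hsq _ (S.mul_mem hx hy)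
  calc x * y = x * (x * y * (x * y)) * y := by rw [h3, mul_one]
    _ = (x * x) * y * x * (y * y) := by group
    _ = y * x := by rw [h1, h2]; group

end H31.HN
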