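import Cfsg.Agent.Lib.H31.HNe
import Cfsg.Prelude.Def_Involutions
import Cfsg.Prelude.Def_Local

/-! # Hall numbers: `m = 24`, the strongly embedded subgroup -/

set_option autoImplicit false

open Cfsg Subgroup

namespace H31.HN

open H59.GW4

universe u

/-- the solvable signalizer functor theorem for `p = 2`, as a hypothesis -/
def SSF : Prop := ∀ (G : Type u) [Group G] [Finite G] (A : Subgroup G)
    (_ : ∀ a ∈ A, ∀ b ∈ A, a * b = b * a) (_ : ∀ a ∈ A, a ^ 2 = 1)
    (_ : 2 ^ 3 ≤ Nat.card A) (θ : G → Subgroup G)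
    (_ : ∀ a ∈ A, a ≠ 1 → θ a ≤ Subgroup.centralizer {a})
    (_ : ∀ a ∈ A, a ≠ 1 → ¬ 2 ∣ Nat.card (θ a))
    (_ : ∀ a ∈ A, a ≠ 1 → ∀ b ∈ A, ∀ x ∈ θ a, b * x * b⁻¹ ∈ θ a)
    (_ : ∀ a ∈ A, a ≠ 1 → Group.IsSolvable (θ a))
    (_ : ∀ a ∈ A, a ≠ 1 → ∀ b ∈ A, b ≠ 1 → θ a ⊓ Subgroup.centralizer {b} ≤ θ b),
    ¬ 2 ∣ Nat.card ↥(⨆ a : {a : G // a ∈ A ∧ a ≠ 1}, θ a)

/-- the odd core of a centralizer with a normal 2-complement -/
theorem mem_oc {G : Type*} [Group G] [Finite G] {C : Subgroup G} (hC : HasNormalPComplement 2 C) {x : G}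
    (hx : x ∈ C) (ho : (orderOf x).Coprime 2) : x ∈ oc C := by
  haveI : Fact (Nat.Prime 2) := ⟨Nat.prime_two⟩
  obtain ⟨N, hN, hco, hk⟩ := (H39.PNilp.iff_exists).mp hC
  haveI := hN
  have h1 : (⟨x, hx⟩ : C) ∈ N := (H39.PNilp.mem_iff_coprime N hco hk _).mpr (by
    rw [← Subgroup.orderOf_coe]; exact ho)
  have h2 : N ≤ pPrimeCore 2 C := H1.Cores.le_pPrimeCore hN hco
  exact ⟨⟨x, hx⟩, h2 h1, rfl⟩

/-- `C = O(C) S` -/
theorem le_oc_sup {G : Type*} [Group G] [Finite G] {n : ℕ} (hG : Nat.card G = 2 ^ 3 * n) (hn : Odd n)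
    {C S : Subgroup G} (hC : HasNormalPComplement 2 C) (hS : Nat.card S = 8) (hSC : S ≤ C) :
    C ≤ oc C ⊔ S := by
  haveI : Fact (Nat.Prime 2) := ⟨Nat.prime_two⟩
  obtain ⟨N, hN, hco, k, hk⟩ := (H39.PNilp.iff_exists).mp hC
  haveI := hN
  have h2 : N ≤ pPrimeCore 2 C := H1.Cores.le_pPrimeCore hN hco
  -- `N ⊔ S' = ⊤` in C
  have hmul := Subgroup.card_mul_index N
  have hdvd : Nat.card C ∣ 2 ^ 3 * n := by rw [← hG]; exact Subgroup.card_subgroup_dvd_card _
  have hk3 : 2 ^ k ∣ 2 ^ 3 := by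
    rw [← hmul, hk] at hdvd
    have h3 : 2 ^ k ∣ 2 ^ 3 * n := (Dvd.intro_left _ rfl).trans hdvd
    exact Nat.Coprime.dvd_of_dvd_mul_right (Nat.Coprime.pow_left k ((Nat.coprime_two_left).mpr hn)) h3
  have h8 : 8 ∣ 2 ^ k := by
    have h3 : 8 ∣ Nat.card N * 2 ^ k := by
      rw [← hk, hmul, ← hS]
      exact Subgroup.card_dvd_of_le hSC
    refine Nat.Coprime.dvd_of_dvd_mul_left ?_ h3
    have : (2 ^ 3 : ℕ).Coprime (Nat.card N) := Nat.Coprime.pow_left 3 hco.symm
    simpa using this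
  have hk8 : 2 ^ k = 8 := Nat.dvd_antisymm (by simpa using hk3) h8
  set S' : Subgroup C := S.subgroupOf C with hS'
  have hS'8 : Nat.card S' = 8 := by
    rw [Nat.card_congr (Subgroup.subgroupOfEquivOfLe hSC).toEquiv, hS]
  have hinf : S' ⊓ N = ⊥ := by
    apply Subgroup.inf_eq_bot_of_coprime
    rw [hS'8]
    have : (2 ^ 3 : ℕ).Coprime (Nat.card N) := Nat.Coprime.pow_left 3 hco.symm
    simpa using this
  have hsup : S' ⊔ N = ⊤ := by
    apply Subgroup.eq_top_of_card_eq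
    rw [H1.Hall.card_sup_of_disjoint_normal hinf, hS'8, ← hmul, hk, hk8, mul_comm]
  intro x hx
  have h5 : (⟨x, hx⟩ : C) ∈ S' ⊔ N := by rw [hsup]; trivial
  have h6 : (S' ⊔ N).map C.subtype ≤ oc C ⊔ S := by
    rw [Subgroup.map_sup]
    refine sup_le ?_ ?_
    · rw [Subgroup.map_subgroupOf_eq_of_le hSC]
      exact le_sup_right
    · exact (Subgroup.map_mono h2).trans le_sup_left
  exact h6 ⟨_, h5, rfl⟩

/-- Sylow theory inside a subgroup containing `S` -/
theorem conj_into {G : Type*} [Group G] [Finite G] {n : ℕ} (hG : Nat.card G = 2 ^ 3 * n) (hn : Odd n)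
    {M S : Subgroup G} (hS : Nat.card S = 8) (hSM : S ≤ M) {t : G} (htM : t ∈ M) (ht : orderOf t = 2) :
    ∃ m ∈ M, m⁻¹ * t * m ∈ S := by
  haveI : Fact (Nat.Prime 2) := ⟨Nat.prime_two⟩
  have hdvd : Nat.card M ∣ 2 ^ 3 * n := by rw [← hG]; exact Subgroup.card_subgroup_dvd_card _
  obtain ⟨r, hr⟩ : 8 ∣ Nat.card M := by rw [← hS]; exact Subgroup.card_dvd_of_le hSM
  have hro : Odd r := by
    rw [hr] at hdvd
    exact Odd.of_dvd_nat hn (Nat.dvd_of_mul_dvd_mul_left (by norm_num : 0 < 8) (by simpa using hdvd))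
  have hsyl : Nat.card (S.subgroupOf M) = 2 ^ (Nat.card M).factorization 2 := by
    rw [Nat.card_congr (Subgroup.subgroupOfEquivOfLe hSM).toEquiv, hS]
    rw [hr, show (8 : ℕ) = 2 ^ 3 by norm_num, Nat.factorization_mul (by norm_num) hro.pos.ne', Finsupp.add_apply,
      Nat.prime_two.factorization_pow, Finsupp.single_eq_same,
      Nat.factorization_eq_zero_of_not_dvd (fun h => by
        rw [← even_iff_two_dvd] at h
        exact (Nat.not_even_iff_odd.mpr hro) h)]
  let P : Sylow 2 M := Sylow.ofCard (S.subgroupOf M) hsyl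
  have hP : (P : Subgroup M) = S.subgroupOf M := rfl
  have hzp : IsPGroup 2 (zpowers (⟨t, htM⟩ : M)) := IsPGroup.of_card (n := 1) (by
    rw [Nat.card_zpowers, ← Subgroup.orderOf_coe, ht, pow_one])
  obtain ⟨Q, hQ⟩ := hzp.exists_le_sylow
  obtain ⟨u, hu⟩ := MulAction.exists_smul_eq M P Q
  have h1 : (⟨t, htM⟩ : M) ∈ ((u • P : Sylow 2 M) : Subgroup M) := by
    rw [hu]; exact hQ (mem_zpowers _)
  rw [H2.Conj.mem_sylow_smul, hP] at h1
  exact ⟨u, u.2, h1⟩

/-- the strongly embedded subgroup -/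
theorem exists_se (FT : OddThm.{u}) (SF : SSF.{u}) {G : Type u} [Group G] [Finite G] {n : ℕ}
    (hG : Nat.card G = 2 ^ 3 * n) (hn : Odd n)
    (hno : ∀ Y : Subgroup G, Group.IsSolvable Y → ¬ 24 ∣ Nat.card Y) (h24 : 24 ∣ Nat.card G) :
    ∃ M S : Subgroup G, Cfsg.IsStronglyEmbedded M ∧ S ≤ M ∧ Nat.card S = 8 ∧ (∀ x ∈ S, x * x = 1) ∧
      (∀ x ∈ S, ∀ y ∈ S, x * y = y * x) := by
  haveI : Fact (Nat.Prime 2) := ⟨Nat.prime_two⟩
  obtain ⟨S, hS8, hSp, hsq, hcomm, htr⟩ := exists_sylow FT hG hn hno h24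
  have hord : ∀ a ∈ S, a ≠ 1 → orderOf a = 2 := fun a ha ha1 =>
    orderOf_eq_prime (by rw [pow_two]; exact hsq a ha) ha1
  have hnpc : ∀ a ∈ S, a ≠ 1 → HasNormalPComplement 2 (centralizer ({a} : Set G)) := fun a ha ha1 =>
    cent_npc FT hG hn hno (hord a ha ha1)
  set θ : G → Subgroup G := fun a => oc (centralizer ({a} : Set G)) with hθ
  have hθodd : ∀ a, Odd (Nat.card (θ a)) := fun a => oc_odd _
  have hθle : ∀ a, θ a ≤ centralizer ({a} : Set G) := fun a => oc_le _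
  have hmem : ∀ a ∈ S, a ≠ 1 → ∀ x ∈ centralizer ({a} : Set G), (orderOf x).Coprime 2 → x ∈ θ a :=
    fun a ha ha1 x hx ho => mem_oc (hnpc a ha ha1) hx ho
  have hodd : ∀ a, ∀ x ∈ θ a, (orderOf x).Coprime 2 := by
    intro a x hx
    rw [Nat.coprime_two_right]
    have : orderOf x ∣ Nat.card (θ a) := by
      rw [← Nat.card_zpowers]
      exact Subgroup.card_dvd_of_le (by rw [zpowers_le]; exact hx)
    exact Odd.of_dvd_nat (hθodd a) this
  have hSC : ∀ a ∈ S, S ≤ centralizer ({a} : Set G) := by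
    intro a ha x hx
    rw [mem_centralizer_singleton_iff]
    exact hcomm x hx a ha
  set W : Subgroup G := ⨆ a : {a : G // a ∈ S ∧ a ≠ 1}, θ a with hW
  have hconj : ∀ g ∈ normalizer (S : Set G), ∀ a ∈ S, a ≠ 1 → ∀ x ∈ θ a, g * x * g⁻¹ ∈ W := by
    intro g hg a ha ha1 x hx
    have ha' : g * a * g⁻¹ ∈ S := (mem_normalizer_iff.mp hg a).mp ha
    have ha1' : g * a * g⁻¹ ≠ 1 := by
      intro h
      apply ha1
      have : a = g⁻¹ * (g * a * g⁻¹) * g := by group
      rw [this, h]; group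
    have h1 : g * x * g⁻¹ ∈ θ (g * a * g⁻¹) := by
      apply hmem _ ha' ha1'
      · rw [mem_centralizer_singleton_iff]
        have h2 : x * a = a * x := mem_centralizer_singleton_iff.mp (hθle a hx)
        calc g * x * g⁻¹ * (g * a * g⁻¹) = g * (x * a) * g⁻¹ := by group
          _ = g * a * g⁻¹ * (g * x * g⁻¹) := by rw [h2]; group
      · have : orderOf (g * x * g⁻¹) = orderOf x := by
          rw [← MulAut.conj_apply]
          exact orderOf_injective (MulAut.conj g).toMonoidHom (MulAut.conj g).injective x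
        rw [this]
        exact hodd a x hx
    exact (le_iSup (fun a : {a : G // a ∈ S ∧ a ≠ 1} => θ a) ⟨g * a * g⁻¹, ha', ha1'⟩) h1
  have hWodd : Odd (Nat.card W) := by
    rw [← Nat.not_even_iff_odd, even_iff_two_dvd]
    refine SF G S hcomm (fun a ha => by rw [pow_two]; exact hsq a ha) (by rw [hS8]; norm_num) θ
      (fun a _ _ => hθle a) ?_ ?_ ?_ ?_
    · intro a ha ha1 h
      rw [← even_iff_two_dvd] at h
      exact (Nat.not_even_iff_odd.mpr (hθodd a)) h
    · intro a ha ha1 b hb x hx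
      have hb' := hSC a ha hb
      have := le_normalizer_oc (centralizer ({a} : Set G)) hb'
      exact (mem_normalizer_iff.mp this x).mp hx
    · intro a ha ha1
      exact FT _ (hθodd a)
    · intro a ha ha1 b hb hb1 x hx
      exact hmem b hb hb1 x hx.2 (hodd a x hx.1)
  have hNW : normalizer (S : Set G) ≤ normalizer (W : Set G) := by
    have key : ∀ g ∈ normalizer (S : Set G), ∀ x ∈ W, g * x * g⁻¹ ∈ W := by
      intro g hg x hx
      have h1 : W ≤ W.comap (MulAut.conj g).toMonoidHom := by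
        rw [hW]
        refine iSup_le ?_
        rintro ⟨a, ha, ha1⟩ y hy
        exact hconj g hg a ha ha1 y hy
      exact h1 hx
    intro g hg
    rw [mem_normalizer_iff]
    intro x
    refine ⟨key g hg x, fun h => ?_⟩
    have h2 := key g⁻¹ (inv_mem hg) _ h
    have h3 : g⁻¹ * (g * x * g⁻¹) * g⁻¹⁻¹ = x := by group
    rwa [h3] at h2
  have hSN : S ≤ normalizer (S : Set G) := le_normalizer
  set M : Subgroup G := W ⊔ normalizer (S : Set G) with hM
  have hNSs : Group.IsSolvable (normalizer (S : Set G)) := by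
    haveI hDn : (S.subgroupOf (normalizer (S : Set G))).Normal := Subgroup.normal_in_normalizer
    refine solvable_of_normal (S.subgroupOf (normalizer (S : Set G)))
      (solvable_two_group (hSp.of_equiv (Subgroup.subgroupOfEquivOfLe le_normalizer).symm)) ?_
    apply FT
    have hcard := Subgroup.card_eq_card_quotient_mul_card_subgroup (S.subgroupOf (normalizer (S : Set G)))
    have hdvd : Nat.card (normalizer (S : Set G)) ∣ 2 ^ 3 * n := by
      rw [← hG]; exact Subgroup.card_subgroup_dvd_card _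
    rw [hcard, Nat.card_congr (Subgroup.subgroupOfEquivOfLe le_normalizer).toEquiv] at hdvd
    exact odd_quot hdvd (by rw [hS8]; norm_num) hn
  have hMs : Group.IsSolvable M := H26.SupCard.isSolvable_sup hNW (FT _ hWodd) hNSs
  have hMtop : M ≠ ⊤ := by
    intro h
    apply hno M hMs
    rw [h, Subgroup.card_top]
    exact h24
  have hSM : S ≤ M := hSN.trans le_sup_right
  have hCM : ∀ a ∈ S, a ≠ 1 → centralizer ({a} : Set G) ≤ M := by
    intro a ha ha1
    refine (le_oc_sup hG hn (hnpc a ha ha1) hS8 (hSC a ha)).trans ?_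
    refine sup_le ?_ hSM
    exact (le_iSup (fun a : {a : G // a ∈ S ∧ a ≠ 1} => θ a) ⟨a, ha, ha1⟩).trans le_sup_left
  refine ⟨M, S, ⟨hMtop, ?_, ?_⟩, hSM, hS8, hsq, hcomm⟩
  · rw [even_iff_two_dvd]
    have : Nat.card S ∣ Nat.card M := Subgroup.card_dvd_of_le hSM
    rw [hS8] at this
    exact (by norm_num : 2 ∣ 8).trans this
  · intro g hg
    by_contra hev
    rw [Nat.not_odd_iff_even, even_iff_two_dvd] at hev
    obtain ⟨t, ht⟩ := exists_prime_orderOf_dvd_card' (G := (M ⊓ M.map (MulAut.conj g).toMonoidHom : Subgroup G)) 2 hev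
    rw [← Subgroup.orderOf_coe] at ht
    obtain ⟨htM, htg⟩ := t.2
    obtain ⟨t', ht'M, ht'⟩ := htg
    have ht'e : g * t' * g⁻¹ = (t : G) := ht'
    have ht'o : orderOf t' = 2 := by
      rw [← ht, ← ht'e, ← MulAut.conj_apply]
      exact (orderOf_injective (MulAut.conj g).toMonoidHom (MulAut.conj g).injective t').symm
    obtain ⟨m, hm, hms⟩ := conj_into hG hn hS8 hSM htM ht
    obtain ⟨m', hm', hms'⟩ := conj_into hG hn hS8 hSM ht'M ht'o
    have ht1 : (t : G) ≠ 1 := by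
      intro h; rw [h, orderOf_one] at ht; omega
    have hne : m⁻¹ * (t : G) * m ≠ 1 := by
      intro h
      apply ht1
      have : (t : G) = m * (m⁻¹ * t * m) * m⁻¹ := by group
      rw [this, h]; group
    have ht'1 : t' ≠ 1 := by
      intro h; rw [h, orderOf_one] at ht'o; omega
    have hne' : m'⁻¹ * t' * m' ≠ 1 := by
      intro h
      apply ht'1
      have : t' = m' * (m'⁻¹ * t' * m') * m'⁻¹ := by group
      rw [this, h]; group
    obtain ⟨k, hk, hkk⟩ := htr _ hms hne _ hms' hne'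
    -- g m' k m⁻¹ centralizes ...
    have hkM : k ∈ M := (le_sup_right : normalizer (S : Set G) ≤ M) hk
    have hcent : m⁻¹ * g * m' * k ∈ centralizer ({m⁻¹ * (t : G) * m} : Set G) := by
      rw [mem_centralizer_singleton_iff]
      have h1 : k * (m⁻¹ * (t : G) * m) = m'⁻¹ * t' * m' * k := by
        rw [← hkk]; group
      calc m⁻¹ * g * m' * k * (m⁻¹ * (t : G) * m) = m⁻¹ * g * m' * (k * (m⁻¹ * (t : G) * m)) := by group
        _ = m⁻¹ * g * m' * (m'⁻¹ * t' * m' * k) := by rw [h1]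
        _ = m⁻¹ * (g * t' * g⁻¹) * g * m' * k := by group
        _ = m⁻¹ * (t : G) * g * m' * k := by rw [ht'e]
        _ = m⁻¹ * (t : G) * m * (m⁻¹ * g * m' * k) := by group
    have h2 := hCM _ hms hne hcent
    apply hg
    have h3 : g = m * (m⁻¹ * g * m' * k) * k⁻¹ * m'⁻¹ := by group
    rw [h3]
    exact M.mul_mem (M.mul_mem (M.mul_mem hm h2) (M.inv_mem hkM)) (M.inv_mem hm')

end H31.HN
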