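import Cfsg.Agent.Lib.H31.HNf
import Cfsg.Agent.Lib.H83.BdC1

/-! # Hall numbers: `m = 24`, conclusion from Bender's theorem -/

set_option autoImplicit false

open Cfsg Subgroup

namespace H31.HN

open H83.BdC H16.BD

universe u

/-- `m = 24` -/
theorem case_twentyfour (FT : OddThm.{u}) (SF : SSF.{u}) (main : BenderThm.{u, u}) (G : Type u) [Group G] [Finite G]
    (h1 : 24 ∣ Nat.card G) (h2 : (24 : ℕ).Coprime (Nat.card G / 24)) :
    ∃ H : Subgroup G, Nat.card H = 24 := by
  classical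
  haveI : Fact (Nat.Prime 2) := ⟨Nat.prime_two⟩
  by_contra hcon
  obtain ⟨q, hq⟩ := h1
  have h1' : 24 ∣ Nat.card G := ⟨q, hq⟩
  have hqc : (24 : ℕ).Coprime q := by
    rw [hq, Nat.mul_div_cancel_left _ (by norm_num)] at h2
    exact h2
  have hq2 : Odd q := by
    rw [← Nat.coprime_two_left]
    exact hqc.coprime_dvd_left (by norm_num)
  have hq3 : ¬ 3 ∣ q := by
    intro h
    have h3 : (3 : ℕ).Coprime q := hqc.coprime_dvd_left (by norm_num)
    have := Nat.Coprime.eq_one_of_dvd h3 h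
    omega
  have hG : Nat.card G = 2 ^ 3 * (3 * q) := by rw [hq]; ring
  have hn : Odd (3 * q) := Odd.mul (by decide) hq2
  have hno : ∀ Y : Subgroup G, Group.IsSolvable Y → ¬ 24 ∣ Nat.card Y := fun Y hY h =>
    hcon (of_solvable h1' h2 Y hY h)
  obtain ⟨M, S, hM, hSM, hS8, hsq, hcomm⟩ := exists_se FT SF hG hn hno h1'
  have hord : ∀ a ∈ S, a ≠ 1 → orderOf a = 2 := fun a ha ha1 =>
    orderOf_eq_prime (by rw [pow_two]; exact hsq a ha) ha1
  -- two commuting involutions
  have hF : Four G := by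
    obtain ⟨v, hv⟩ := exists_prime_orderOf_dvd_card' (G := S) 2 (by rw [hS8]; norm_num)
    rw [← Subgroup.orderOf_coe] at hv
    obtain ⟨w, hwS, hw1, hwv⟩ : ∃ w ∈ S, w ≠ 1 ∧ w ≠ (v : G) := by
      by_contra hcon'
      push Not at hcon'
      have hle : (S : Set G) ⊆ {1, (v : G)} := by
        intro y hy
        by_cases h1 : y = 1
        · exact Or.inl h1
        · exact Or.inr (hcon' y hy h1)
      have h3 := Set.ncard_le_ncard hle (Set.toFinite _)
      have h4 : (S : Set G).ncard = 8 := by rw [← Nat.card_coe_set_eq]; exact hS8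
      have h5 : ({1, (v : G)} : Set G).ncard ≤ 2 := Set.ncard_insert_le _ _ |>.trans (by simp)
      omega
    exact ⟨v, w, fun h => hwv h.symm, hv, hord w hwS hw1, hcomm _ v.2 _ hwS⟩
  have B := beta_of_se main hM hF
  obtain ⟨Q, hcQ, hQM, hQn, htrans, hsemi, hinv, hpow⟩ := exists_Q B
  have hcodd := core_odd B
  set K : Subgroup G := M.normalCore with hK
  have hKn : K.Normal := Subgroup.normalCore_normal M
  have hSQ : S ≤ Q := by
    intro x hx
    by_cases hx1 : x = 1
    · rw [hx1]; exact Q.one_mem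
    · exact hinv x (hSM hx) (hord x hx hx1)
  obtain ⟨g, hg⟩ : ∃ g : G, g ∉ M := by
    by_contra hcon'
    push Not at hcon'
    exact hM.1 (by ext x; simp [hcon' x])
  -- orbits
  haveI : Finite (G ⧸ M) := inferInstance
  have horb : MulAction.orbit Q (QuotientGroup.mk g : G ⧸ M) = {(QuotientGroup.mk 1 : G ⧸ M)}ᶜ := by
    ext x
    obtain ⟨x, rfl⟩ := QuotientGroup.mk_surjective x
    rw [Set.mem_compl_iff, Set.mem_singleton_iff]
    constructor
    · rintro ⟨u, hu⟩ hx
      have h3 : (u : G) • (QuotientGroup.mk g : G ⧸ M) = QuotientGroup.mk 1 := by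
        rw [← hx]; exact hu
      rw [smul_mk_eq_iff, inv_one, one_mul] at h3
      apply hg
      have : g = (u : G)⁻¹ * (u * g) := by group
      rw [this]
      exact M.mul_mem (M.inv_mem (hQM u.2)) h3
    · intro hx
      have hxM : x ∉ M := (mk_ne_one (H := M)).mp hx
      obtain ⟨u, hu, h3⟩ := htrans g x hg hxM
      exact ⟨⟨u, hu⟩, smul_mk_eq_iff.mpr h3⟩
  have hstab : MulAction.stabilizer Q (QuotientGroup.mk g : G ⧸ M) = K.subgroupOf Q := by
    ext u
    rw [MulAction.mem_stabilizer_iff, Subgroup.mem_subgroupOf]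
    have h3 : (u • (QuotientGroup.mk g : G ⧸ M) = QuotientGroup.mk g) ↔ g⁻¹ * ((u : G) * g) ∈ M :=
      smul_mk_eq_iff
    rw [h3]
    constructor
    · intro h
      exact hsemi g hg u u.2 h
    · intro h
      have h4 := hKn.conj_mem _ h g⁻¹
      rw [inv_inv] at h4
      have h5 : g⁻¹ * (u : G) * g ∈ M := (Subgroup.normalCore_le M) h4
      rwa [mul_assoc] at h5
  have hcnt : Nat.card (MulAction.orbit Q (QuotientGroup.mk g : G ⧸ M)) * Nat.card (K.subgroupOf Q) = Nat.card Q := by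
    rw [← hstab]
    haveI := Fintype.ofFinite Q
    haveI := Fintype.ofFinite (MulAction.orbit Q (QuotientGroup.mk g : G ⧸ M))
    haveI := Fintype.ofFinite (MulAction.stabilizer Q (QuotientGroup.mk g : G ⧸ M))
    simp only [Nat.card_eq_fintype_card]
    exact MulAction.card_orbit_mul_card_stabilizer_eq_card_group Q (QuotientGroup.mk g : G ⧸ M)
  have hKc : Nat.card (K.subgroupOf Q) = Nat.card K := Nat.card_congr (Subgroup.subgroupOfEquivOfLe hcQ).toEquiv
  have horbc : Nat.card (MulAction.orbit Q (QuotientGroup.mk g : G ⧸ M)) = Nat.card (G ⧸ M) - 1 := by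
    rw [horb, Nat.card_coe_set_eq, Set.ncard_compl, Set.ncard_singleton]
  -- Q/K is a 2-group
  have hQ2 : IsPGroup 2 (Q ⧸ K.subgroupOf Q) := by
    intro x
    obtain ⟨x, rfl⟩ := QuotientGroup.mk_surjective x
    obtain ⟨k, hk⟩ := hpow x x.2
    refine ⟨k, ?_⟩
    rw [← QuotientGroup.mk_pow, QuotientGroup.eq_one_iff, Subgroup.mem_subgroupOf]
    simpa using hk
  obtain ⟨j, hj⟩ := IsPGroup.iff_card.mp hQ2
  have hQc := Subgroup.card_eq_card_quotient_mul_card_subgroup (K.subgroupOf Q)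
  rw [hj, hKc] at hQc
  have hdvd : Nat.card Q ∣ 2 ^ 3 * (3 * q) := by rw [← hG]; exact Subgroup.card_subgroup_dvd_card _
  have hj1 : 2 ^ j ∣ 2 ^ 3 := by
    rw [hQc] at hdvd
    exact Nat.Coprime.dvd_of_dvd_mul_right (Nat.Coprime.pow_left j ((Nat.coprime_two_left).mpr hn))
      ((Dvd.intro _ rfl).trans hdvd)
  have hj2 : 2 ^ 3 ∣ 2 ^ j := by
    have h3 : 2 ^ 3 ∣ 2 ^ j * Nat.card K := by
      rw [← hQc, show (2 : ℕ) ^ 3 = 8 by norm_num, ← hS8]
      exact Subgroup.card_dvd_of_le hSQ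
    exact Nat.Coprime.dvd_of_dvd_mul_right (Nat.Coprime.pow_left 3 ((Nat.coprime_two_left).mpr hcodd)) h3
  have hj3 : 2 ^ j = 2 ^ 3 := Nat.dvd_antisymm hj1 hj2
  rw [horbc, hKc, hQc, hj3] at hcnt
  have h9 : Nat.card (G ⧸ M) - 1 = 2 ^ 3 := Nat.eq_of_mul_eq_mul_right Nat.card_pos hcnt
  have h9' : Nat.card (G ⧸ M) = 9 := by
    have := Nat.card_pos (α := G ⧸ M)
    omega
  have h10 : 9 ∣ Nat.card G := by
    rw [Subgroup.card_eq_card_quotient_mul_card_subgroup M, h9']
    exact dvd_mul_right _ _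
  apply hq3
  rw [hq] at h10
  have h11 : 3 * 3 ∣ 3 * (8 * q) := by
    have : 24 * q = 3 * (8 * q) := by ring
    rw [← this]; simpa using h10
  have h12 := Nat.dvd_of_mul_dvd_mul_left (by norm_num) h11
  exact Nat.Coprime.dvd_of_dvd_mul_left (by norm_num) h12

end H31.HN
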