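import Cfsg.Agent.Lib.H31.HNa
import Cfsg.Agent.Lib.H31.HNg

/-! # Hall numbers: the theorem, modulo its four inputs -/

set_option autoImplicit false

open Cfsg Subgroup

namespace H31.HN

open H16.BD

/-- Hall numbers -/
theorem hall_numbers (FT : OddThm.{0}) (SF : SSF.{0}) (main : BenderThm.{0, 0}) (GW : GWFour.{0})
    (m : ℕ) (hm : 2 ≤ m) :
    (∀ (G : Type) [Group G] [Finite G], m ∣ Nat.card G → m.Coprime (Nat.card G / m) →
        ∃ H : Subgroup G, Nat.card H = m) ↔
    (IsPrimePow m ∨ m % 4 = 2 ∨ m = 12 ∨ m = 24 ∨ m = 60) := by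
  constructor
  · exact forward m hm
  · rintro (h | h | h | h | h) G _ _ h1 h2
    · exact case_primePow h G h1 h2
    · exact case_two_mod_four FT h G h1 h2
    · subst h; exact case_twelve FT G h1 h2
    · subst h; exact case_twentyfour FT SF main G h1 h2
    · subst h; exact case_sixty FT GW _ G le_rfl h1 h2

end H31.HN
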