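import Cfsg.Agent.Lib.H39.DAQ3
import Cfsg.Agent.Lib.H39.DAQ4
import Cfsg.Agent.Lib.H58.ZUse
import Cfsg.Agent.S0215
set_option autoImplicit false
open MulAction H39.DA
universe u v

/-! Doubly transitive groups: an involution `u` centralizing the stabilizer of the two points it swaps,
not fused to the involutions of the two-point stabilizer (generic version for S3262 and S3219). -/

namespace H31.R3G

section basic
variable {G : Type u} {Ω : Type v} [Group G] [MulAction G Ω]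

theorem mem_St {a b : Ω} {g : G} : g ∈ St G a b ↔ g • a = a ∧ g • b = b := by
  unfold St
  rw [Subgroup.mem_inf, mem_stabilizer_iff, mem_stabilizer_iff]

theorem inv_conj {g s : G} (hs : Inv s) : Inv (g * s * g⁻¹) := by
  refine ⟨fun h => hs.1 ?_, ?_⟩
  · have h1 : s = g⁻¹ * (g * s * g⁻¹) * g := by group
    rw [h1, h]; group
  · have h1 : g * s * g⁻¹ * (g * s * g⁻¹) = g * (s * s) * g⁻¹ := by group
    rw [h1, hs.2]; group

theorem inv_of_conj {t s : G} (ht : Inv t) (h : IsConj t s) : Inv s := by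
  obtain ⟨g, rfl⟩ := isConj_iff.1 h
  exact inv_conj ht

theorem swap_of_inv {s : G} {x y : Ω} (hs : Inv s) (h : s • x = y) : s • y = x := by
  rw [← h, smul_smul, hs.2, one_smul]

theorem swap_form {a b : Ω} {u s : G} (hu : Inv u) (hua : u • a = b) (hub : u • b = a)
    (huc : ∀ g ∈ St G a b, u * g = g * u) (hs : Inv s) (hsa : s • a = b) (hsb : s • b = a) :
    ∃ k ∈ St G a b, s = u * k ∧ (k = 1 ∨ Inv k) := by
  have hk : u * s ∈ St G a b := by
    refine mem_St.2 ⟨?_, ?_⟩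
    · rw [mul_smul, hsa, hub]
    · rw [mul_smul, hsb, hua]
  have hsk : s = u * (u * s) := by rw [← mul_assoc, hu.2, one_mul]
  have hc := huc _ hk
  have h1 : u * s * u = s := by rw [← hc]; exact hsk.symm
  have hkk : (u * s) * (u * s) = 1 := by
    calc (u * s) * (u * s) = (u * s * u) * s := by group
      _ = s * s := by rw [h1]
      _ = 1 := hs.2
  refine ⟨u * s, hk, hsk, ?_⟩
  by_cases h2 : u * s = 1
  · exact Or.inl h2
  · exact Or.inr ⟨h2, hkk⟩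

end basic

variable {G : Type u} {Ω : Type v} [Group G] [Finite G] [MulAction G Ω] [Finite Ω]

theorem uh_conj (h : TT G Ω)
    (hcj : ∀ {c d : Ω}, c ≠ d → ∀ s s' : G, Inv s → s ∈ St G c d → Inv s' → s' ∈ St G c d → ∃ g ∈ St G c d, g * s * g⁻¹ = s')
    {a b : Ω} (hab : a ≠ b) {t : G} (ht : Inv t) (hts : t ∈ St G a b)
    (hsw : ∃ s : G, IsConj t s ∧ s • a = b ∧ s • b = a)
    {u : G} (hu : Inv u) (hua : u • a = b) (hub : u • b = a) (huc : ∀ g ∈ St G a b, u * g = g * u) (htu : ¬ IsConj t u)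
    {k : G} (hk : Inv k) (hks : k ∈ St G a b) : IsConj t (u * k) := by
  obtain ⟨s, hs, hsa, hsb⟩ := hsw
  obtain ⟨k0, hk0, rfl, hk1⟩ := swap_form hu hua hub huc (inv_of_conj ht hs) hsa hsb
  rcases hk1 with rfl | hk1
  · rw [mul_one] at hs; exact absurd hs htu
  obtain ⟨g, hg, hgk⟩ := hcj hab k0 k hk1 hk0 hk hks
  refine hs.trans (isConj_iff.2 ⟨g, ?_⟩)
  rw [← hgk]
  calc g * (u * k0) * g⁻¹ = (g * u) * k0 * g⁻¹ := by group
    _ = (u * g) * k0 * g⁻¹ := by rw [huc g hg]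
    _ = u * (g * k0 * g⁻¹) := by group

theorem j_eq (h : TT G Ω)
    (hcj : ∀ {c d : Ω}, c ≠ d → ∀ s s' : G, Inv s → s ∈ St G c d → Inv s' → s' ∈ St G c d → ∃ g ∈ St G c d, g * s * g⁻¹ = s')
    {a b : Ω} (hab : a ≠ b) {t : G} (ht : Inv t) (hts : t ∈ St G a b)
    (hsw : ∃ s : G, IsConj t s ∧ s • a = b ∧ s • b = a)
    {u : G} (hu : Inv u) (hua : u • a = b) (hub : u • b = a) (huc : ∀ g ∈ St G a b, u * g = g * u) (htu : ¬ IsConj t u) :
    Nat.card {s : G // IsConj t s ∧ s • a = b ∧ s • b = a} = Nat.card {s : G // Inv s ∧ s ∈ St G a b} := by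
  symm
  refine Nat.card_congr (Equiv.ofBijective (fun k : {s : G // Inv s ∧ s ∈ St G a b} =>
    (⟨u * k.1, uh_conj h hcj hab ht hts hsw hu hua hub huc htu k.2.1 k.2.2, ?_, ?_⟩ : {s : G // IsConj t s ∧ s • a = b ∧ s • b = a})) ⟨?_, ?_⟩)
  · rw [mul_smul, (mem_St.1 k.2.2).1, hua]
  · rw [mul_smul, (mem_St.1 k.2.2).2, hub]
  · intro k k' hkk
    have h1 : u * k.1 = u * k'.1 := congrArg Subtype.val hkk
    exact Subtype.ext (mul_left_cancel h1)
  · rintro ⟨s, hs, hsa, hsb⟩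
    obtain ⟨k0, hk0, rfl, hk1⟩ := swap_form hu hua hub huc (inv_of_conj ht hs) hsa hsb
    rcases hk1 with rfl | hk1
    · rw [mul_one] at hs; exact absurd hs htu
    · exact ⟨⟨k0, hk1, hk0⟩, rfl⟩

theorem u_unique (h : TT G Ω)
    (hcj : ∀ {c d : Ω}, c ≠ d → ∀ s s' : G, Inv s → s ∈ St G c d → Inv s' → s' ∈ St G c d → ∃ g ∈ St G c d, g * s * g⁻¹ = s')
    {a b : Ω} (hab : a ≠ b) {t : G} (ht : Inv t) (hts : t ∈ St G a b)
    (hsw : ∃ s : G, IsConj t s ∧ s • a = b ∧ s • b = a)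
    {u : G} (hu : Inv u) (hua : u • a = b) (hub : u • b = a) (huc : ∀ g ∈ St G a b, u * g = g * u) (htu : ¬ IsConj t u)
    {w : G} (hw : IsConj u w) (hwa : w • a = b) : w = u := by
  have hwi := inv_of_conj hu hw
  obtain ⟨k0, hk0, rfl, hk1⟩ := swap_form hu hua hub huc hwi hwa (swap_of_inv hwi hwa)
  rcases hk1 with rfl | hk1
  · rw [mul_one]
  · exact absurd ((uh_conj h hcj hab ht hts hsw hu hua hub huc htu hk1 hk0).trans hw.symm) htu

theorem w_unique (h : TT G Ω)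
    (hcj : ∀ {c d : Ω}, c ≠ d → ∀ s s' : G, Inv s → s ∈ St G c d → Inv s' → s' ∈ St G c d → ∃ g ∈ St G c d, g * s * g⁻¹ = s')
    {a b : Ω} (hab : a ≠ b) {t : G} (ht : Inv t) (hts : t ∈ St G a b)
    (hsw : ∃ s : G, IsConj t s ∧ s • a = b ∧ s • b = a)
    {u : G} (hu : Inv u) (hua : u • a = b) (hub : u • b = a) (huc : ∀ g ∈ St G a b, u * g = g * u) (htu : ¬ IsConj t u)
    (x y : Ω) (hxy : x ≠ y) :
    ∃ w : G, IsConj u w ∧ w • x = y ∧ ∀ w' : G, IsConj u w' → w' • x = y → w' = w := by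
  obtain ⟨g, hga, hgb⟩ := h.tr a b x y hab hxy
  refine ⟨g * u * g⁻¹, isConj_iff.2 ⟨g, rfl⟩, ?_, fun w' hw' hx => ?_⟩
  · rw [← hga, mul_smul, mul_smul, inv_smul_smul, hua, hgb]
  · have h1 : IsConj u (g⁻¹ * w' * g) := hw'.trans (isConj_iff.2 ⟨g⁻¹, by group⟩)
    have h2 : (g⁻¹ * w' * g) • a = b := by
      rw [mul_smul, mul_smul, hga, hx, ← hgb, inv_smul_smul]
    have h3 := u_unique h hcj hab ht hts hsw hu hua hub huc htu h1 h2
    calc w' = g * (g⁻¹ * w' * g) * g⁻¹ := by group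
      _ = g * u * g⁻¹ := by rw [h3]

theorem fix_le (h : TT G Ω)
    (hcj : ∀ {c d : Ω}, c ≠ d → ∀ s s' : G, Inv s → s ∈ St G c d → Inv s' → s' ∈ St G c d → ∃ g ∈ St G c d, g * s * g⁻¹ = s')
    {a b : Ω} (hab : a ≠ b) {t : G} (ht : Inv t) (hts : t ∈ St G a b)
    (hsw : ∃ s : G, IsConj t s ∧ s • a = b ∧ s • b = a)
    {u : G} (hu : Inv u) (htu : ¬ IsConj t u) {c d : Ω} (hc : u • c = c) (hd : u • d = d) : c = d := by
  by_contra hcd
  obtain ⟨g, hga, hgb⟩ := h.tr a b c d hab hcd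
  have h1 : g * t * g⁻¹ ∈ St G c d := mem_St.2
    ⟨by rw [← hga, mul_smul, mul_smul, inv_smul_smul, (mem_St.1 hts).1],
     by rw [← hgb, mul_smul, mul_smul, inv_smul_smul, (mem_St.1 hts).2]⟩
  obtain ⟨k, _, hk⟩ := hcj hcd _ _ (inv_conj ht) h1 hu (mem_St.2 ⟨hc, hd⟩)
  exact htu ((isConj_iff.2 ⟨g, rfl⟩).trans (isConj_iff.2 ⟨k, hk⟩))

omit [Finite G] [Finite Ω] in
theorem inv_sq {X : Type v} [MulAction G X] {u : G} (hu : Inv u) : (MulAction.toPerm u : Equiv.Perm X) ^ 2 ^ 1 = 1 := by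
  ext x
  simp [pow_two, smul_smul, hu.2]

theorem exists_fix (u : G) (hu : Inv u) (ho : Odd (Nat.card Ω)) : ∃ c : Ω, u • c = c := by
  classical
  haveI := Fintype.ofFinite Ω
  haveI : Fact (Nat.Prime 2) := ⟨Nat.prime_two⟩
  have h2 : ¬ 2 ∣ Fintype.card Ω := by
    rw [← Nat.card_eq_fintype_card]
    exact fun hd => (Nat.not_even_iff_odd.2 ho) (even_iff_two_dvd.2 hd)
  obtain ⟨c, hc⟩ := Equiv.Perm.exists_fixed_point_of_prime (p := 2) (n := 1) h2 (inv_sq (X := Ω) hu)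
  exact ⟨c, hc⟩

theorem card_ne (c : Ω) : Nat.card {x : Ω // x ≠ c} = Nat.card Ω - 1 := by
  classical
  have h1 : Nat.card {x : Ω // x ≠ c} + 1 = Nat.card Ω := by
    rw [← Finite.card_option]; exact Nat.card_congr (Equiv.optionSubtypeNe c)
  omega


/-- an involution class with a unique element mapping `x` to `y` for all `x ≠ y` and exactly one fixed point each
has exactly one element fixing each point -/
theorem fixed_unique {W : Set G} (hcl : ∀ g : G, ∀ w ∈ W, g * w * g⁻¹ ∈ W)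
    (htr : ∀ x y : Ω, ∃ g : G, g • x = y) (h2 : ∃ a b : Ω, a ≠ b)
    (hfix : ∀ w ∈ W, ∃ c : Ω, ∀ x : Ω, w • x = x ↔ x = c)
    (hex : ∀ x y : Ω, x ≠ y → ∃ w ∈ W, w • x = y ∧ ∀ w' ∈ W, w' • x = y → w' = w)
    {w w' : G} (hw : w ∈ W) (hw' : w' ∈ W) {c : Ω} (hc : w • c = c) (hc' : w' • c = c) : w = w' := by
  classical
  haveI := Fintype.ofFinite G
  haveI := Fintype.ofFinite Ω
  haveI : Nonempty Ω := ⟨c⟩
  choose! φ hφ using hfix
  have hcard : Nat.card W = Nat.card Ω := by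
    have e1 : Nat.card {p : W × Ω // p.2 ≠ φ p.1.1} = Nat.card W * (Nat.card Ω - 1) := by
      rw [Nat.card_congr (Equiv.subtypeProdEquivSigmaSubtype (fun (w : W) (x : Ω) => x ≠ φ w.1)), Nat.card_sigma]
      rw [Finset.sum_congr rfl (fun w _ => card_ne (Ω := Ω) (φ w.1))]
      rw [Finset.sum_const, Finset.card_univ, smul_eq_mul, Nat.card_eq_fintype_card (α := W)]
    have e2 : Nat.card {p : Ω × Ω // p.2 ≠ p.1} = Nat.card Ω * (Nat.card Ω - 1) := by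
      rw [Nat.card_congr (Equiv.subtypeProdEquivSigmaSubtype (fun (w : Ω) (x : Ω) => x ≠ w)), Nat.card_sigma]
      rw [Finset.sum_congr rfl (fun w _ => card_ne (Ω := Ω) w)]
      rw [Finset.sum_const, Finset.card_univ, smul_eq_mul, Nat.card_eq_fintype_card (α := Ω)]
    have e3 : Nat.card {p : W × Ω // p.2 ≠ φ p.1.1} = Nat.card {p : Ω × Ω // p.2 ≠ p.1} := by
      refine Nat.card_congr (Equiv.ofBijective (fun p => (⟨(p.1.2, p.1.1.1 • p.1.2), ?_⟩ : {p : Ω × Ω // p.2 ≠ p.1})) ⟨?_, ?_⟩)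
      · intro h1
        exact p.2 ((hφ p.1.1.1 p.1.1.2 p.1.2).1 h1)
      · rintro ⟨⟨⟨w1, hw1⟩, x1⟩, h1⟩ ⟨⟨⟨w2, hw2⟩, x2⟩, h2⟩ h12
        have h3 := congrArg Subtype.val h12
        simp only [Prod.mk.injEq] at h3
        obtain ⟨hx, hy⟩ := h3
        subst hx
        have hne : x1 ≠ w1 • x1 := fun h => h1 ((hφ w1 hw1 x1).1 h.symm)
        obtain ⟨w0, _, _, hu⟩ := hex x1 (w1 • x1) hne
        have h4 : w1 = w2 := (hu w1 hw1 rfl).trans (hu w2 hw2 hy.symm).symm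
        subst h4
        rfl
      · rintro ⟨⟨x, y⟩, hxy⟩
        obtain ⟨w0, hw0, hw0x, _⟩ := hex x y (Ne.symm hxy)
        refine ⟨⟨(⟨w0, hw0⟩, x), fun h => ?_⟩, ?_⟩
        · exact hxy (hw0x.symm.trans ((hφ w0 hw0 x).2 h))
        · refine Subtype.ext (Prod.ext rfl hw0x)
    rw [e1, e2] at e3
    have h3 : 0 < Nat.card Ω - 1 := by
      obtain ⟨a, b, hab⟩ := h2
      have : Nontrivial Ω := ⟨a, b, hab⟩
      have := Finite.one_lt_card (α := Ω)
      omega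
    exact Nat.eq_of_mul_eq_mul_right h3 e3
  have hsurj : Function.Surjective (fun w : W => φ w.1) := by
    intro x
    obtain ⟨g, hg⟩ := htr c x
    refine ⟨⟨g * w * g⁻¹, hcl g w hw⟩, ?_⟩
    have h1 : (g * w * g⁻¹) • x = x := by rw [← hg, mul_smul, mul_smul, inv_smul_smul, hc]
    exact ((hφ _ (hcl g w hw) x).1 h1).symm
  have hbij : Function.Bijective (fun w : W => φ w.1) := by
    rw [Fintype.bijective_iff_surjective_and_card]
    refine ⟨hsurj, ?_⟩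
    rw [← Nat.card_eq_fintype_card, ← Nat.card_eq_fintype_card, hcard]
  have h5 : φ w = φ w' := ((hφ w hw c).1 hc).symm.trans ((hφ w' hw' c).1 hc')
  have h6 : (⟨w, hw⟩ : W) = ⟨w', hw'⟩ := hbij.1 h5
  exact congrArg Subtype.val h6


theorem isolated (h : TT G Ω)
    (hcj : ∀ {c d : Ω}, c ≠ d → ∀ s s' : G, Inv s → s ∈ St G c d → Inv s' → s' ∈ St G c d → ∃ g ∈ St G c d, g * s * g⁻¹ = s')
    {a b : Ω} (hab : a ≠ b) {t : G} (ht : Inv t) (hts : t ∈ St G a b)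
    (hsw : ∃ s : G, IsConj t s ∧ s • a = b ∧ s • b = a)
    {u : G} (hu : Inv u) (hua : u • a = b) (hub : u • b = a) (huc : ∀ g ∈ St G a b, u * g = g * u) (htu : ¬ IsConj t u)
    (ho : Odd (Nat.card Ω)) :
    ∃ c : Ω, (∀ x : Ω, u • x = x ↔ x = c) ∧ ∀ g : G, (g * u * g⁻¹) • c = c → g * u * g⁻¹ = u := by
  obtain ⟨c, hc⟩ := exists_fix u hu ho
  have hcc : ∀ x : Ω, u • x = x ↔ x = c := fun x =>
    ⟨fun hx => fix_le h hcj hab ht hts hsw hu htu hx hc, fun hx => hx ▸ hc⟩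
  have hWc : ∀ g w : G, w ∈ {w : G | IsConj u w} → g * w * g⁻¹ ∈ {w : G | IsConj u w} := fun g w hw =>
    IsConj.trans hw (isConj_iff.2 ⟨g, rfl⟩)
  refine ⟨c, hcc, fun g hg => ?_⟩
  refine fixed_unique (W := {w : G | IsConj u w}) hWc (fun x y => ?_) h.two (fun w hw => ?_)
    (fun x y hxy => w_unique h hcj hab ht hts hsw hu hua hub huc htu x y hxy) (hWc g u (IsConj.refl u)) (IsConj.refl u) hg hc
  · by_cases hxy : x = y
    · exact ⟨1, by rw [one_smul, hxy]⟩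
    · obtain ⟨g, hg, _⟩ := h.tr x y y x hxy (Ne.symm hxy)
      exact ⟨g, hg⟩
  · obtain ⟨g, rfl⟩ := isConj_iff.1 hw
    refine ⟨g • c, fun x => ?_⟩
    rw [mul_smul, mul_smul, smul_eq_iff_eq_inv_smul, hcc, inv_smul_eq_iff]

theorem odd_case (h : TT G Ω)
    (hcj : ∀ {c d : Ω}, c ≠ d → ∀ s s' : G, Inv s → s ∈ St G c d → Inv s' → s' ∈ St G c d → ∃ g ∈ St G c d, g * s * g⁻¹ = s')
    {a b : Ω} (hab : a ≠ b) {t : G} (ht : Inv t) (hts : t ∈ St G a b)
    (hsw : ∃ s : G, IsConj t s ∧ s • a = b ∧ s • b = a)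
    {u : G} (hu : Inv u) (hua : u • a = b) (hub : u • b = a) (huc : ∀ g ∈ St G a b, u * g = g * u) (htu : ¬ IsConj t u)
    (ho : Odd (Nat.card Ω)) :
    Subgroup.centralizer ({u} : Set G) ⊔ Cfsg.oddCore G = ⊤ := by
  haveI : Fact (Nat.Prime 2) := ⟨Nat.prime_two⟩
  obtain ⟨c, hcc, hcu⟩ := isolated h hcj hab ht hts hsw hu hua hub huc htu ho
  have huo : orderOf u = 2 := orderOf_eq_prime (by rw [pow_two, hu.2]) hu.1
  have huP : IsPGroup 2 (Subgroup.zpowers u) := IsPGroup.of_card (n := 1) (by rw [Nat.card_zpowers, huo, pow_one])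
  obtain ⟨P, hP⟩ := huP.exists_le_sylow
  have huP' : u ∈ P := hP (Subgroup.mem_zpowers u)
  refine H58.ZUse.sup_eq_top (fun P u hu huP hiso => Cfsg.Agent.S0215.result P u hu huP hiso) P huo huP' (fun g hg => ?_)
  apply hcu
  -- the 2-group P fixes a point
  have hcong := P.isPGroup'.card_modEq_card_fixedPoints Ω
  obtain ⟨d, hd⟩ : (fixedPoints P Ω).Nonempty := by
    by_contra hne
    rw [Set.not_nonempty_iff_eq_empty] at hne
    rw [hne] at hcong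
    have h0 : Nat.card (∅ : Set Ω) = 0 := by simp
    rw [h0] at hcong
    have h2 : 2 ∣ Nat.card Ω := (Nat.modEq_zero_iff_dvd).1 hcong
    exact (Nat.not_even_iff_odd.2 ho) (even_iff_two_dvd.2 h2)
  have h1 : u • d = d := hd ⟨u, huP'⟩
  have h2 : d = c := (hcc d).1 h1
  have h3 := hd ⟨_, hg⟩
  rw [h2] at h3
  exact h3

theorem even_case (h : TT G Ω)
    (hcj : ∀ {c d : Ω}, c ≠ d → ∀ s s' : G, Inv s → s ∈ St G c d → Inv s' → s' ∈ St G c d → ∃ g ∈ St G c d, g * s * g⁻¹ = s')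
    {a b : Ω} (hab : a ≠ b) {t : G} (ht : Inv t) (hts : t ∈ St G a b)
    (hsw : ∃ s : G, IsConj t s ∧ s • a = b ∧ s • b = a)
    {u : G} (hu : Inv u) (hua : u • a = b) (hub : u • b = a) (huc : ∀ g ∈ St G a b, u * g = g * u) (htu : ¬ IsConj t u)
    {e : ℕ} (he : Nat.card Ω = 2 ^ e) (he0 : e ≠ 0) :
    (∀ x : Ω, u • x ≠ x) ∧ ∃ E : Subgroup G, Reg G Ω E ∧ (∀ g ∈ E, ∀ g' ∈ E, g * g' = g' * g) := by
  classical
  haveI : Fact (Nat.Prime 2) := ⟨Nat.prime_two⟩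
  have hfp : ∀ x : Ω, u • x ≠ x := by
    intro x hx
    haveI := Fintype.ofFinite Ω
    obtain ⟨y, hy, hyx⟩ := Equiv.Perm.exists_fixed_point_of_prime' (p := 2) (n := 1)
      (by rw [← Nat.card_eq_fintype_card, he]; exact dvd_pow_self 2 he0) (inv_sq (X := Ω) hu) (a := x) hx
    exact hyx (fix_le h hcj hab ht hts hsw hu htu hy hx)
  refine ⟨hfp, ?_⟩
  exact reg_even h {w : G | IsConj u w} (fun w hw => inv_of_conj hu hw)
    (fun g w hw => IsConj.trans hw (isConj_iff.2 ⟨g, rfl⟩))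
    (fun w hw x hx => by
      obtain ⟨g, rfl⟩ := isConj_iff.1 hw
      rw [mul_smul, mul_smul, smul_eq_iff_eq_inv_smul] at hx
      exact hfp _ hx)
    (fun x y hxy => w_unique h hcj hab ht hts hsw hu hua hub huc htu x y hxy) e he

end H31.R3G
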